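import Mathlib
import Cfsg.Agent.GT.Conj
import Cfsg.Agent.GT.MinNormal
import Cfsg.Agent.GT.HallTools
import Cfsg.Agent.GT.CoprimeAbelian
import Cfsg.Agent.GT.CoprimeSylow
import Cfsg.Agent.GT.PGroupChain
import Cfsg.Agent.GT.TransferEval
import Cfsg.Agent.GT.Frattini
import Cfsg.Agent.FT.Wielandt

/-! Flavell's theorem on the fixed points of coprime action:
`C_{[H,P]}(P) = ⟨C_{[h,P]}(P) | h ∈ H⟩` for `P` of odd prime order and `H` a solvable `p'`-group. -/

set_option autoImplicit false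

namespace Cfsg.Agent.Flv

open Subgroup Cfsg.Agent.GT
open scoped commutatorElement

universe u

variable {G : Type u} [Group G]

local notation "𝐂(" X ")" => centralizer ((X : Subgroup _) : Set _)
local notation "𝐍(" X ")" => normalizer ((X : Subgroup _) : Set _)

/-- `[h, P]` -/
def cm (P : Subgroup G) (h : G) : Subgroup G := closure {c | ∃ a ∈ P, c = ⁅h, a⁆}

/-- `⟨C_{[h,P]}(P) | h ∈ H⟩` -/
def fx (P H : Subgroup G) : Subgroup G := ⨆ h : H, cm P h ⊓ 𝐂(P)

variable {P H K N V : Subgroup G} {h : G}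

theorem mem_cm {a : G} (ha : a ∈ P) : ⁅h, a⁆ ∈ cm P h := subset_closure ⟨a, ha, rfl⟩

theorem cm_le (hK : ∀ a ∈ P, ⁅h, a⁆ ∈ K) : cm P h ≤ K :=
  (closure_le _).2 (by rintro _ ⟨a, ha, rfl⟩; exact hK a ha)

theorem cm_le_commutator (hh : h ∈ H) : cm P h ≤ ⁅H, P⁆ :=
  cm_le fun _ ha => commutator_mem_commutator hh ha

theorem le_normalizer_cm [Finite G] : P ≤ 𝐍(cm P h) := fun a ha =>
  mem_normalizer_of_map_conj_le ((map_le_iff_le_comap).2 (cm_le fun b hb => by
    have : (MulAut.conj a).toMonoidHom ⁅h, b⁆ = ⁅h, a⁆⁻¹ * ⁅h, a * b⁆ := by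
      simp only [commutatorElement_def, MulEquiv.coe_toMonoidHom, MulAut.conj_apply]; group
    rw [mem_comap, this]
    exact mul_mem (inv_mem (mem_cm ha)) (mem_cm (mul_mem ha hb))))

theorem exists_cm_mul [Finite G] (hP : Group.IsSolvable P)
    (hc : (Nat.card P).Coprime (Nat.card (cm P h))) : ∃ m ∈ cm P h, ∃ c ∈ 𝐂(P), m * c = h :=
  CopAct.exists_eq_mul_centralizer le_normalizer_cm hc (Or.inl hP) fun _ ha => mem_cm ha

theorem cm_le_self [Finite G] (hP : Group.IsSolvable P)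
    (hc : (Nat.card P).Coprime (Nat.card (cm P h))) : cm P h ≤ ⁅cm P h, P⁆ := by
  obtain ⟨m, hm, c, hc, e⟩ := exists_cm_mul hP hc
  refine cm_le fun a ha => ?_
  have : ⁅h, a⁆ = ⁅m, a⁆ := by
    rw [← e]
    calc ⁅m * c, a⁆ = m * (c * a) * c⁻¹ * m⁻¹ * a⁻¹ := by simp only [commutatorElement_def]; group
      _ = _ := by rw [← hc a ha]; simp only [commutatorElement_def]; group
  rw [this]
  exact commutator_mem_commutator hm ha

theorem map_cm {G' : Type*} [Group G'] (f : G →* G') : (cm P h).map f =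
    closure {c | ∃ a ∈ P.map f, c = ⁅f h, a⁆} := by
  rw [cm, MonoidHom.map_closure]
  congr 1
  ext c
  constructor
  · rintro ⟨_, ⟨a, ha, rfl⟩, rfl⟩
    exact ⟨f a, mem_map_of_mem f ha, map_commutatorElement f h a⟩
  · rintro ⟨_, ⟨a, ha, rfl⟩, rfl⟩
    exact ⟨_, ⟨a, ha, rfl⟩, map_commutatorElement f h a⟩

theorem le_fx (hh : h ∈ H) : cm P h ⊓ 𝐂(P) ≤ fx P H :=
  le_iSup (fun h : H => cm P h ⊓ 𝐂(P)) ⟨h, hh⟩

theorem fx_le (hK : ∀ h ∈ H, cm P h ⊓ 𝐂(P) ≤ K) : fx P H ≤ K := iSup_le fun h => hK h h.2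

theorem fx_mono (hK : K ≤ H) : fx P K ≤ fx P H := fx_le fun _ hh => le_fx (hK hh)

theorem fx_le_inf : fx P H ≤ ⁅H, P⁆ ⊓ 𝐂(P) :=
  fx_le fun _ hh => inf_le_inf_right _ (cm_le_commutator hh)

theorem map_fx_le {G' : Type u} [Group G'] (f : G →* G') :
    (fx P H).map f ≤ fx (P.map f) (H.map f) := by
  rw [map_le_iff_le_comap]
  refine fx_le fun h hh x hx => le_fx (mem_map_of_mem f hh) ⟨?_, ?_⟩
  · exact (map_cm f).le (mem_map_of_mem f hx.1)
  · rintro _ ⟨a, ha, rfl⟩
    rw [← map_mul, hx.2 a ha, map_mul]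

theorem fx_map_le [Finite G] {G' : Type u} [Group G'] (f : G →* G') (hP : Group.IsSolvable P)
    (hn : P ≤ 𝐍(H)) (hc : (Nat.card P).Coprime (Nat.card H)) :
    fx (P.map f) (H.map f) ≤ (fx P H).map f := by
  refine fx_le ?_
  rintro _ ⟨h, hh, rfl⟩
  have := CopAct.map_inf_centralizer' f (le_normalizer_cm (P := P) (h := h))
    (CopAct.coprime_mono hc le_rfl ((cm_le_commutator hh).trans
      (CopAct.commutator_le_of_le_normalizer hn))) (Or.inl hP)
  rw [map_cm] at this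
  exact this.ge.trans (map_mono (le_fx hh))

theorem conj_mem_fx {c d : G} (hc : c ∈ H ⊓ 𝐂(P)) (hd : d ∈ fx P H) : c * d * c⁻¹ ∈ fx P H := by
  have : fx P H ≤ (fx P H).comap (MulAut.conj c).toMonoidHom := by
    refine fx_le fun h hh x hx => le_fx (h := c * h * c⁻¹)
      (mul_mem (mul_mem hc.1 hh) (inv_mem hc.1)) ⟨?_,
        (centralizer (P : Set G)).mul_mem ((centralizer (P : Set G)).mul_mem hc.2 hx.2)
          ((centralizer (P : Set G)).inv_mem hc.2)⟩
    have : cm P h ≤ (cm P (c * h * c⁻¹)).comap (MulAut.conj c).toMonoidHom := cm_le fun a ha => by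
      have e : c * a * c⁻¹ = a := by rw [← hc.2 a ha]; group
      rw [mem_comap, map_commutatorElement]
      change ⁅c * h * c⁻¹, c * a * c⁻¹⁆ ∈ _
      rw [e]
      exact mem_cm ha
    exact this hx.1
  exact this hd

/-- minimal counterexample -/
structure FMin (p : ℕ) (P H : Subgroup G) : Prop where
  prime : p.Prime
  odd : p ≠ 2
  cP : Nat.card P ∣ p
  nH : H.Normal
  top : H ⊔ P = ⊤
  solv : Group.IsSolvable H
  cop : (Nat.card P).Coprime (Nat.card H)
  comm : ⁅H, P⁆ = H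
  sub : ∀ K < H, P ≤ 𝐍(K) → ⁅K, P⁆ ⊓ 𝐂(P) ≤ fx P H
  quot : ∀ N : Subgroup G, N.Normal → N ≠ ⊥ → N ≤ H → ∀ c ∈ H ⊓ 𝐂(P),
    ∃ d ∈ fx P H, ∃ n ∈ N ⊓ 𝐂(P), d * n = c
  bad : ¬ H ⊓ 𝐂(P) ≤ fx P H

theorem isSolvable_of_card_dvd [Finite G] {p : ℕ} (hp : p.Prime) (h : Nat.card P ∣ p) :
    Group.IsSolvable P := by
  have := Fact.mk hp
  have := isCyclic_of_card_dvd_prime h
  exact isSolvable_of_isMulCommutative

theorem eq_of_sup_derived [Finite G] (hH : Group.IsNilpotent H) (hK : K ≤ H)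
    (h : K ⊔ ⁅H, H⁆ = H) : K = H := by
  have h1 : K.subgroupOf H ⊔ _root_.commutator H = ⊤ := by
    apply map_injective H.subtype_injective
    rw [Subgroup.map_sup, subgroupOf_map_subtype, inf_eq_left.2 hK, commutator_def,
      map_commutator, ← MonoidHom.range_eq_map, range_subtype, h]
  refine le_antisymm hK (subgroupOf_eq_top.1 (frattini_nongenerating (eq_top_iff.2 ?_)))
  exact h1.ge.trans (sup_le_sup_left commutator_le_frattini_of_isNilpotent _)

namespace FMin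

variable [Finite G] {p : ℕ} (m : FMin p P H)
include m

theorem sP : Group.IsSolvable P := isSolvable_of_card_dvd m.prime m.cP

theorem nP : P ≤ 𝐍(H) := by have := m.nH; exact le_normalizer_of_normal

theorem normal (h1 : H ≤ 𝐍(N)) (h2 : P ≤ 𝐍(N)) : N.Normal := normal_of_sup_eq_top m.top h1 h2

theorem not_le (hN : N.Normal) (h0 : N ≠ ⊥) (hH : N ≤ H) : ¬ N ⊓ 𝐂(P) ≤ fx P H := fun h =>
  m.bad fun c hc => by
    obtain ⟨d, hd, n, hn, rfl⟩ := m.quot N hN h0 hH c hc
    exact mul_mem hd (h hn)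

theorem cm_le_H (hh : h ∈ H) : cm P h ≤ H := (cm_le_commutator hh).trans m.comm.le

theorem cm_ne (hh : h ∈ H) : cm P h ≠ H := fun e => m.bad (by
  conv_lhs => rw [← e]
  exact le_fx hh)

theorem cop' (hK : K ≤ H) : (Nat.card P).Coprime (Nat.card K) :=
  CopAct.coprime_mono m.cop le_rfl hK

theorem fix_le : H ⊓ 𝐂(P) ≤ ⁅H, H⁆ := by
  have := CopAct.commutator_inf_centralizer_le m.nP m.cop
  rwa [m.comm] at this

theorem ne_bot : H ≠ ⊥ := fun e => m.bad (inf_le_left.trans (e.le.trans bot_le))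

theorem card_P : Nat.card P = p := ((Nat.dvd_prime m.prime).1 m.cP).resolve_left fun e =>
  m.ne_bot (by rw [← m.comm, card_eq_one.1 e, commutator_bot_right])

theorem frob (hV : IsMinNormal V) (hVH : V ≤ H) (hVc : IsMulCommutative V) (hKH : K ≤ H)
    (hPK : P ≤ 𝐍(K)) (hc : (Nat.card V).Coprime (Nat.card K))
    (hK : ⁅K, K⁆ = ⊥) (hs : V ⊔ K = H) (hC : V ⊓ 𝐂(K) = ⊥)
    (hi : ∀ L ≤ K, P ≤ 𝐍(L) → L = ⊥ ∨ L = K) : False := by
  have hVn := hV.normal
  have hp := m.prime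
  have hVK : V ⊓ K = ⊥ := CopAct.inf_eq_bot_of_coprime hc
  have hK0 : K ≠ ⊥ := fun e => hV.ne_bot (by rwa [e, centralizer_bot, inf_top_eq] at hC)
  have hH' : ⁅H, H⁆ ≤ V := by
    rw [commutator_le_iff_map_mk', ← hs, sup_comm, map_mk'_sup, ← map_commutator, hK,
      Subgroup.map_bot]
  have hKP : K ⊓ 𝐂(P) = ⊥ := eq_bot_iff.2 fun k hk =>
    hVK.le ⟨hH' (m.fix_le ⟨hKH hk.1, hk.2⟩), hk.1⟩
  have hgen : ∀ a ∈ P, a ≠ 1 → zpowers a = P := fun a ha h1 => by
    have := Fact.mk hp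
    refine eq_of_le_of_card_ge (zpowers_le.2 ha) ?_
    have h2 := (Nat.dvd_prime hp).1 ((card_dvd_of_le (zpowers_le.2 ha)).trans m.cP)
    rw [m.card_P, h2.resolve_left (by simpa using h1)]
  have hP0 : P ≠ ⊥ := fun e => hp.ne_one (by rw [← m.card_P, e, card_bot])
  have hcop : (Nat.card V).Coprime (Nat.card ↥(K ⊔ P)) := by
    rw [CopAct.card_sup_of_coprime hPK (m.cop' hKH)]
    exact hc.mul_right (m.cop' hVH).symm
  have hW := (FT.Frobenius_Wielandt_fixpoint (FT.isFrob_of_semiregular hPK (fun a ha h1 => by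
    rw [← hKP, ← hgen a ha h1, centralizer_zpowers]) hK0 hP0) le_normalizer_of_normal hcop
    isSolvable_of_isMulCommutative).2.2 hC
  obtain ⟨k, hk, hk1⟩ := (K.bot_or_exists_ne_one).resolve_left hK0
  have hVKP : ∀ u ∈ V, ∀ y ∈ K ⊔ P, u * y * u⁻¹ ∈ K ⊔ P → y * u = u * y := fun u hu y hy h => by
    have := CopAct.eq_one_of_coprime hcop (x := u * y * u⁻¹ * y⁻¹)
      (by rw [mul_assoc, mul_assoc, ← mul_assoc y]
          exact mul_mem hu (hVn.conj_mem _ (inv_mem hu) y)) (mul_mem h (inv_mem hy))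
    rw [mul_inv_eq_one, mul_inv_eq_iff_eq_mul] at this
    exact this.symm
  have key : ∀ v ∈ V, ∃ u ∈ V ⊓ 𝐂(P), k⁻¹ * (u * v) * k ∈ V ⊓ 𝐂(P) := by
    intro v hv
    have hvk : v * k ∈ H := mul_mem (hVH hv) (hKH hk)
    have e1 : (cm P (v * k)).map (QuotientGroup.mk' V) = (cm P k).map (QuotientGroup.mk' V) := by
      rw [map_cm, map_cm, map_mul, QuotientGroup.mk'_apply, (QuotientGroup.eq_one_iff v).2 hv,
        one_mul]
    have e2 : cm P k = K := (hi _ ((cm_le_commutator hk).trans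
      (CopAct.commutator_le_of_le_normalizer hPK)) le_normalizer_cm).resolve_left fun e =>
        hk1 (hKP.le ⟨hk, fun a ha => (commutatorElement_eq_one_iff_mul_comm.1
          (e.le (mem_cm ha))).symm⟩)
    have e3 : cm P (v * k) ⊔ V = H := by
      rw [← comap_map_mk', e1, comap_map_mk', e2, sup_comm, hs]
    have e4 : cm P (v * k) ⊓ V = ⊥ := by
      have : (cm P (v * k) ⊓ V).Normal := m.normal (by
        rw [← e3]
        exact sup_le (CopAct.le_normalizer_inf le_normalizer le_normalizer_of_normal)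
          (le_normalizer_of_le_of_comm inf_le_right))
        (CopAct.le_normalizer_inf le_normalizer_cm le_normalizer_of_normal)
      refine (hV.eq_bot_or_eq inf_le_right).resolve_right fun e => m.cm_ne hvk ?_
      rw [← e3, eq_comm, sup_eq_left]
      exact inf_eq_right.1 e
    have e5 : (Nat.card ↥(cm P (v * k) ⊔ P)).Coprime (Nat.card V) := by
      rw [CopAct.card_sup_of_coprime le_normalizer_cm (m.cop' (m.cm_le_H hvk))]
      refine Nat.Coprime.mul_left ?_ (m.cop' hVH)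
      have a1 := CopAct.card_sup_of_inf_eq_bot (K := V) (A := cm P (v * k))
        le_normalizer_of_normal (by rw [inf_comm, e4])
      have a2 := CopAct.card_sup_of_inf_eq_bot (K := V) (A := K) le_normalizer_of_normal hVK
      rw [sup_comm, e3, ← hs, a2] at a1
      rw [← Nat.eq_of_mul_eq_mul_left Nat.card_pos a1]
      exact hc.symm
    obtain ⟨u, hu, hu'⟩ := CopAct.exists_conj_mem_of_le_sup (A := K ⊔ P) (K := V)
      le_normalizer_of_normal hcop.symm (Or.inr isSolvable_of_isMulCommutative)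
      (B := cm P (v * k) ⊔ P) (by rw [← sup_assoc, hs, m.top]; exact le_top) e5
    refine ⟨u, ⟨hu, fun a ha => hVKP u hu a (mem_sup_right ha) (hu' a (mem_sup_right ha))⟩,
      hVn.conj_mem' _ (mul_mem hu hv) k, fun a ha => ?_⟩
    have h1 := hVKP _ (mul_mem hu hv) (k * a * k⁻¹)
      (mul_mem (mul_mem (mem_sup_left hk) (mem_sup_right ha)) (inv_mem (mem_sup_left hk))) (by
        have := hu' _ (mul_mem (mem_sup_left (mem_cm (h := v * k) ha)) (mem_sup_right ha))
        convert this using 1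
        simp only [commutatorElement_def]; group)
    calc a * (k⁻¹ * (u * v) * k) = k⁻¹ * (k * a * k⁻¹ * (u * v)) * k := by group
      _ = _ := by rw [h1]; group
  choose u hu hu' using key
  have h2 : Nat.card V ≤ Nat.card ↥(V ⊓ 𝐂(P)) ^ 2 := by
    rw [sq, ← Nat.card_prod]
    refine Nat.card_le_card_of_injective
      (fun v : V => ((⟨_, hu v v.2⟩, ⟨_, hu' v v.2⟩) : ↥(V ⊓ 𝐂(P)) × ↥(V ⊓ 𝐂(P)))) fun v w e => ?_
    have a1 : u v v.2 = u w w.2 := congrArg (fun x => (x.1 : G)) e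
    have a2 : k⁻¹ * (u v v.2 * v) * k = k⁻¹ * (u w w.2 * w) * k := congrArg (fun x => (x.2 : G)) e
    rw [a1] at a2
    exact Subtype.ext (by simpa using a2)
  have h3 : 1 < Nat.card V := (one_lt_card_iff_ne_bot V).2 hV.ne_bot
  rw [hW, m.card_P] at h2 h3
  have h4 : 1 < Nat.card ↥(V ⊓ 𝐂(P)) := (Nat.one_lt_pow_iff hp.ne_zero).1 h3
  have := (Nat.pow_le_pow_iff_right h4).1 h2
  have := hp.two_le
  have := m.odd
  omega

theorem central (hV : IsMinNormal V) (hVH : V ≤ H) : H ≤ 𝐂(V) := by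
  by_contra hn
  have hVn := hV.normal
  have hHn := m.nH
  have := m.solv
  have := isSolvable_of_le hVH
  obtain ⟨q, hq, hVq, hVc⟩ := hV.exists_isPGroup
  have := Fact.mk hq
  obtain ⟨R, hR, hRH⟩ := exists_isChiefFactor_above (W := H ⊓ 𝐂(V)) (U := H)
    (lt_of_le_of_ne inf_le_left fun e => hn (e.ge.trans inf_le_right))
  have := isSolvable_of_le hRH
  have hRn := hR.2.1
  obtain ⟨hRR, r, hr, -, j, -, hj⟩ := hR.elementary
  have := Fact.mk hr
  obtain ⟨S, hPK⟩ := CopAct.exists_invariant_sylow (A := P) (K := R) le_normalizer_of_normal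
    (m.cop' hRH) (Or.inl m.sP) r
  have hKr : IsPGroup r ((S : Subgroup R).map R.subtype) := S.2.map _
  have hKR : (S : Subgroup R).map R.subtype ≤ R := map_subtype_le _
  have hs : (S : Subgroup R).map R.subtype ⊔ (H ⊓ 𝐂(V)) = R := by
    refine HT.sup_eq_of_coprime_relIndex hKR hR.1.le ?_
    rw [hj, relIndex, subgroupOf, comap_map_eq_self_of_injective R.subtype_injective]
    exact ((Nat.Prime.coprime_iff_not_dvd hr).2 S.not_dvd_index).symm.pow_right j
  generalize (S : Subgroup R).map R.subtype = K at hPK hKr hKR hs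
  have hKH := hKR.trans hRH
  have hVZ : V ≤ H ⊓ 𝐂(V) := le_inf hVH (le_centralizer_iff_isMulCommutative.2 hVc)
  have hC : V ⊓ 𝐂(K) = ⊥ := by
    have e : V ⊓ 𝐂(K) = V ⊓ 𝐂(R) := by
      refine le_antisymm (le_inf inf_le_left ?_) (inf_le_inf_left _ (centralizer_anti hKR))
      rw [← hs, centralizer_sup]
      exact le_inf inf_le_right (inf_le_left.trans (le_centralizer_iff.1 inf_le_right))
    rw [e]
    refine (hV.eq_bot_or_eq inf_le_left).resolve_right fun e => hR.1.not_ge ?_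
    exact le_inf hRH (le_centralizer_iff.1 (inf_eq_left.1 e))
  have hrq : q ≠ r := by
    rintro rfl
    exact PG.inf_centralizer_ne_bot_of_isPGroup hVq hKr le_normalizer_of_normal hV.ne_bot hC
  have hc : ∀ {A B : Subgroup G}, A ≤ V → B ≤ K → (Nat.card B).Coprime (Nat.card A) :=
    fun hA hB => CopAct.coprime_mono (IsPGroup.coprime_card_of_ne r q hrq.symm K V hKr hVq) hB hA
  have hsK : ∀ {B : Subgroup G}, B ≤ K → Group.IsSolvable B := fun hB =>
    isSolvable_of_le (hB.trans hKH)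
  have hVD := m.not_le hVn hV.ne_bot hVH
  have hVK : V ⊔ K = H := by
    by_contra hne
    have h1 := m.sub (V ⊔ K) (lt_of_le_of_ne (sup_le hVH hKH) hne)
      (CopAct.le_normalizer_sup le_normalizer_of_normal hPK)
    have h2 : ⁅V, ⁅K, P⁆⁆ ≤ ⁅V ⊔ K, P⁆ := by
      rw [commutator_comm]
      refine (commutator_mono (commutator_mono (le_sup_right : K ≤ V ⊔ K) le_rfl) le_rfl).trans ?_
      exact CopAct.commutator_le_of_le_normalizer
        (le_sup_left.trans (normalizer_commutator_ge_left _ _))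
    have hK1 := CopAct.commutator_le_of_le_normalizer hPK
    refine hVD fun v hv => ?_
    have hn0 : K ⊓ 𝐂(P) ≤ 𝐍(V ⊓ 𝐂(P)) := CopAct.le_normalizer_inf le_normalizer_of_normal
      (inf_le_right.trans le_normalizer)
    obtain ⟨x, hx, c, hc', rfl⟩ := CopAct.exists_eq_commutator_mul_centralizer hn0
      (hc inf_le_left inf_le_left) (Or.inl (hsK inf_le_left)) hv
    refine mul_mem ((commutator_le.2 fun w hw k hk => ?_) hx) (h1 ⟨h2 ?_, hc'.1.2⟩)
    · obtain ⟨d, hd, n, hn, rfl⟩ := m.quot V hVn hV.ne_bot hVH k ⟨hKH hk.1, hk.2⟩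
      have e : ⁅w, d * n⁆ = w * d * w⁻¹ * d⁻¹ := by
        calc ⁅w, d * n⁆ = w * d * (n * w⁻¹) * n⁻¹ * d⁻¹ := by
              simp only [commutatorElement_def]; group
          _ = _ := by rw [setLike_mul_comm (s := V) hn.1 (V.inv_mem hw.1)]; group
      rw [e]
      exact mul_mem (conj_mem_fx ⟨hVH hw.1, hw.2⟩ hd) (inv_mem hd)
    · have hn1 : K ⊓ 𝐂(P) ≤ 𝐍(⁅K, P⁆) :=
        inf_le_left.trans (normalizer_commutator_ge_left _ _)
      have e1 := CopAct.commutator_sup_centralizer (A := ⁅K, P⁆) (K := V) le_normalizer_of_normal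
        (hc le_rfl hK1) (Or.inl (hsK hK1))
      have e2 := CopAct.sup_inf_centralizer (A := K ⊓ 𝐂(P))
        (le_normalizer_commutator le_normalizer_of_normal hn1)
        (CopAct.le_normalizer_inf (X := V) le_normalizer_of_normal
          (CopAct.le_normalizer_centralizer hn1))
        (inf_le_left.trans (normalizer_commutator_ge_left _ _))
        (hc (inf_le_right.trans inf_le_left) inf_le_left) (Or.inl (hsK inf_le_left))
      rw [e1, inf_assoc V, ← centralizer_sup,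
        CopAct.commutator_sup_centralizer hPK (m.cop' hKH) (Or.inl m.sP), hC, sup_bot_eq] at e2
      exact (e2.le ⟨hc'.1.1, hc'.2⟩).1
  have htop : ∀ {L : Subgroup G}, V ≤ 𝐍(L) → K ≤ 𝐍(L) → P ≤ 𝐍(L) → L.Normal :=
    fun h1 h2 h3 => m.normal (hVK ▸ sup_le h1 h2) h3
  have hKZ : K ⊓ 𝐂(V) = ⊥ := by
    by_contra hne
    refine hVD fun v hv => ?_
    obtain ⟨d, hd, n, hn, e⟩ := m.quot (K ⊓ 𝐂(V)) (htop
      (le_normalizer_of_le_centralizer (le_centralizer_iff.1 inf_le_right))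
      (CopAct.le_normalizer_inf le_normalizer le_normalizer_of_normal)
      (CopAct.le_normalizer_inf hPK le_normalizer_of_normal)) hne
      (inf_le_left.trans hKH) v ⟨hVH hv.1, hv.2⟩
    refine Tr.mem_of_pow_mem_of_coprime (n := Nat.card K) ?_
      (Nat.Coprime.of_dvd_left (orderOf_dvd_natCard _ hv.1) (hc le_rfl le_rfl).symm)
    have h1 : Commute v n⁻¹ := (show Commute v n from hn.1.2 v hv.1).inv_right
    have h2 : d ^ Nat.card K = v ^ Nat.card K := by
      rw [eq_mul_inv_of_mul_eq e, h1.mul_pow, inv_pow,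
        orderOf_dvd_iff_pow_eq_one.1 (orderOf_dvd_natCard _ hn.1.1), inv_one, mul_one]
    exact h2 ▸ pow_mem hd _
  have hKK : ⁅K, K⁆ = ⊥ := eq_bot_iff.2 (le_trans (le_inf (commutator_le_self K)
    (((commutator_mono hKR hKR).trans hRR).trans inf_le_right)) hKZ.le)
  have hKc : IsMulCommutative K :=
    le_centralizer_iff_isMulCommutative.1 (commutator_eq_bot_iff_le_centralizer.1 hKK)
  refine m.frob hV hVH hVc hKH hPK (hc le_rfl le_rfl).symm hKK hVK hC fun L hL hPL => ?_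
  have hn : (L ⊔ (H ⊓ 𝐂(V))).Normal := htop ((hVZ.trans le_sup_right).trans le_normalizer)
    (CopAct.le_normalizer_sup (le_normalizer_of_le_of_comm hL) le_normalizer_of_normal)
    (CopAct.le_normalizer_sup hPL le_normalizer_of_normal)
  rcases hR.2.2.2 _ hn le_sup_right (sup_le (hL.trans hKR) hR.1.le) with e | e
  · exact Or.inl (eq_bot_iff.2 (le_trans (le_inf hL ((le_sup_left.trans e.le).trans inf_le_right))
      hKZ.le))
  · refine Or.inr ?_
    have := inf_sup_eq_of_normal_right (H := K) (K := H ⊓ 𝐂(V)) hL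
    rw [e, inf_eq_left.2 hKR, ← inf_assoc, inf_eq_left.2 hKH, hKZ, sup_bot_eq] at this
    exact this.symm

theorem center_le : H ⊓ 𝐂(H) ≤ 𝐂(P) := by
  have := m.nH
  have hc : IsMulCommutative ↥(H ⊓ 𝐂(H)) := le_centralizer_iff_isMulCommutative.1
    (inf_le_right.trans (centralizer_anti inf_le_left))
  have h1 := CopAct.commutator_le_of_le_normalizer (A := P) (K := H ⊓ 𝐂(H)) le_normalizer_of_normal
  have hn : ∀ {L : Subgroup G}, L ≤ H ⊓ 𝐂(H) → H ≤ 𝐍(L) := fun h =>
    le_normalizer_of_le_centralizer (le_centralizer_iff.1 (h.trans inf_le_right))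
  by_contra hne
  have hN := m.normal (hn h1) (normalizer_commutator_ge_right _ _)
  refine m.not_le hN (fun e => hne (le_centralizer_iff.1 (CopAct.commutator_eq_bot_iff.1 e)))
    (h1.trans inf_le_left) ?_
  rw [CopAct.commutator_inf_centralizer_eq_bot hc le_normalizer_of_normal (m.cop' inf_le_left)]
  exact bot_le

theorem fx_inf : fx P H ⊓ 𝐂(H) = ⊥ := by
  by_contra hne
  exact m.not_le (m.normal (le_normalizer_of_le_centralizer (le_centralizer_iff.1 inf_le_right))
    (le_normalizer_of_le_centralizer (le_centralizer_iff.1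
      (inf_le_left.trans (fx_le_inf.trans inf_le_right))))) hne
    (inf_le_left.trans (fx_le_inf.trans (inf_le_left.trans m.comm.le)))
    (inf_le_left.trans inf_le_left)

theorem nilp : Group.IsNilpotent H := by
  have := m.nH
  have := m.solv
  obtain ⟨V, hV, hVH⟩ := exists_isMinNormal_le m.ne_bot
  have hVn := hV.normal
  have := isSolvable_of_le hVH
  obtain ⟨q, hq, hVq, -⟩ := hV.exists_isPGroup
  have := Fact.mk hq
  have hZ := m.central hV hVH
  obtain ⟨S, hVS, hPS⟩ := CopAct.exists_invariant_sylow_ge m.nP m.cop (Or.inl m.sP) hVH hVq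
    le_normalizer_of_normal
  have hi : ¬ q ∣ ((S : Subgroup H).map H.subtype).index := by
    rw [index_map_subtype]
    refine hq.not_dvd_mul S.not_dvd_index fun h => hq.not_dvd_one ?_
    obtain ⟨n, hn⟩ := hVq.exists_card_eq
    have h1 : q ∣ Nat.card H := Dvd.dvd.trans (by
      rw [hn]
      exact dvd_pow_self q fun e => hV.ne_bot (card_eq_one.1 (by rw [hn, e, pow_zero])))
      (card_dvd_of_le hVH)
    have h2 : H.index ∣ Nat.card P := by
      rw [← relIndex_top_right, ← m.top, relIndex_sup_left]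
      exact relIndex_dvd_card _ _
    exact m.cop ▸ Nat.dvd_gcd (h.trans h2) h1
  have hSq : IsPGroup q ((S : Subgroup H).map H.subtype) := S.2.map _
  have hSH : (S : Subgroup H).map H.subtype ≤ H := map_subtype_le _
  generalize (S : Subgroup H).map H.subtype = S at hVS hPS hi hSq hSH
  rcases hSH.lt_or_eq with hlt | rfl
  swap
  · exact hSq.isNilpotent
  refine (m.not_le hVn hV.ne_bot hVH fun v hv => ?_).elim
  have h1 : v ∈ ⁅S, S⁆ := by
    refine Tr.mem_of_pow_mem_of_coprime (Tr.pow_index_mem_commutator_of_mem_center ?_ (hVS hv.1)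
      (commutator_mono le_top le_top (m.comm.ge (hVH hv.1)))) ?_
    · rw [← centralizer_top, ← m.top, centralizer_sup]
      exact ⟨le_centralizer_iff.1 hZ hv.1, hv.2⟩
    · obtain ⟨n, hn⟩ := IsPGroup.iff_orderOf.1 hVq ⟨v, hv.1⟩
      rw [← orderOf_coe] at hn
      rw [hn]
      exact ((Nat.Prime.coprime_iff_not_dvd hq).2 hi).pow_left n
  have hSn : S ≤ 𝐍(⁅S, P⁆) := normalizer_commutator_ge_left _ _
  have h2 : ⁅S, S⁆ ≤ ⁅S, P⁆ ⊔ (fx P H ⊓ S) := by
    refine commutator_le.2 fun s hs s' hs' => ?_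
    obtain ⟨t, ht, c, hc, rfl⟩ := CopAct.exists_eq_commutator_mul_centralizer hPS (m.cop' hSH)
      (Or.inl m.sP) hs
    obtain ⟨t', ht', c', hc', rfl⟩ := CopAct.exists_eq_commutator_mul_centralizer hPS (m.cop' hSH)
      (Or.inl m.sP) hs'
    have hcc : ⁅c, c'⁆ ∈ S := commutator_le_self S (commutator_mem_commutator hc.1 hc'.1)
    have e : ⁅t * c, t' * c'⁆ = t * (c * t' * c⁻¹) * (c * c' * c⁻¹ * t⁻¹ * (c * c' * c⁻¹)⁻¹) *
        (⁅c, c'⁆ * t'⁻¹ * ⁅c, c'⁆⁻¹) * ⁅c, c'⁆ := by simp only [commutatorElement_def]; group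
    rw [e]
    refine mul_mem (mem_sup_left (mul_mem (mul_mem (mul_mem ht (CopAct.conj_mem hSn hc.1 ht'))
      (CopAct.conj_mem hSn (S.mul_mem (S.mul_mem hc.1 hc'.1) (S.inv_mem hc.1)) (inv_mem ht)))
      (CopAct.conj_mem hSn hcc (inv_mem ht')))) (mem_sup_right ⟨?_, hcc⟩)
    obtain ⟨d, hd, n, hn, rfl⟩ := m.quot V hVn hV.ne_bot hVH c' ⟨hSH hc'.1, hc'.2⟩
    have e : ⁅c, d * n⁆ = c * d * c⁻¹ * d⁻¹ := by
      calc ⁅c, d * n⁆ = c * d * (n * c⁻¹) * n⁻¹ * d⁻¹ := by
            simp only [commutatorElement_def]; group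
        _ = _ := by rw [hZ (H.inv_mem (hSH hc.1)) n hn.1]; group
    rw [e]
    exact (fx P H).mul_mem (conj_mem_fx ⟨hSH hc.1, hc.2⟩ hd) (inv_mem hd)
  obtain ⟨t, ht, d, hd, rfl⟩ :=
    (CopAct.mem_sup_iff_of_le_normalizer (inf_le_right.trans hSn)).1 (h2 h1)
  exact mul_mem (m.sub S hlt hPS ⟨ht, ((centralizer (P : Set G)).mul_mem_cancel_right
    (fx_le_inf hd.1).2).1 hv.2⟩) hd.1

theorem class_two : ⁅H, H⁆ ≤ 𝐂(H) := by
  by_contra hne
  have := m.nH
  have := m.nilp
  have hn1 : (H ⊓ 𝐂(H)).Normal := inferInstance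
  have hn2 : (⁅H, H⁆ ⊔ (H ⊓ 𝐂(H))).Normal := sup_normal _ _
  have hlt : H ⊓ 𝐂(H) < ⁅H, H⁆ ⊔ (H ⊓ 𝐂(H)) :=
    right_lt_sup.2 fun e => hne (e.trans inf_le_right)
  obtain ⟨T, hT, hTH⟩ := exists_isChiefFactor_above (hU := hn2) (hW := hn1) hlt
  have hTn := hT.2.1
  have h1 := hT.commutator_le_of_isNilpotent H
  have hTH' : T ≤ H := hTH.trans (sup_le (commutator_le_self H) inf_le_left)
  have h2 : T ⊓ 𝐂(P) ≤ 𝐂(H) := by
    have a1 : ⁅P, T ⊓ 𝐂(P)⁆ = ⊥ :=
      commutator_eq_bot_iff_le_centralizer.2 (le_centralizer_iff.1 inf_le_right)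
    have a2 : ⁅⁅T ⊓ 𝐂(P), H⁆, P⁆ = ⊥ := commutator_eq_bot_iff_le_centralizer.2
      (((commutator_mono inf_le_left le_rfl).trans h1).trans m.center_le)
    have a3 := commutator_commutator_eq_bot_of_rotate (by rw [a1, commutator_bot_left]) a2
    rw [m.comm] at a3
    exact le_centralizer_iff.1 (commutator_eq_bot_iff_le_centralizer.1 a3)
  have h3 : ⁅T, P⁆ ≤ T := commutator_le_left _ _
  have h4 : ⁅T, P⁆ ≤ ⁅H, H⁆ := by
    refine (commutator_mono hTH le_rfl).trans (commutator_sup_le (N := ⁅H, H⁆)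
      le_normalizer_of_normal (commutator_le_left ⁅H, H⁆ P) ?_)
    exact (commutator_eq_bot_iff_le_centralizer.2 m.center_le).le.trans bot_le
  refine hT.1.not_ge (le_inf hTH' ?_)
  rw [← CopAct.commutator_sup_centralizer (A := P) (K := T) le_normalizer_of_normal (m.cop' hTH')
    (Or.inl m.sP)]
  refine sup_le (le_centralizer_iff.1 (m.comm.ge.trans (commutator_le.2 fun h hh a ha => ?_))) h2
  intro t ht
  have hM := m.cm_le_H hh
  have hK : ⁅T, P⁆ ⊔ cm P h < H := by
    refine lt_of_le_of_ne (sup_le (h3.trans hTH') hM) fun e => m.cm_ne hh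
      (eq_of_sup_derived m.nilp hM (le_antisymm (sup_le hM (commutator_le_self H)) ?_))
    exact e.ge.trans (sup_le (h4.trans le_sup_right) le_sup_left)
  have h5 := m.sub _ hK (CopAct.le_normalizer_sup (normalizer_commutator_ge_right _ _)
    le_normalizer_cm)
  have h6 : ⁅t, ⁅h, a⁆⁆ ∈ H ⊓ 𝐂(H) := h1 (commutator_mem_commutator (h3 ht) (hM (mem_cm ha)))
  refine commutatorElement_eq_one_iff_mul_comm.1 (m.fx_inf.le ⟨h5 ⟨?_, m.center_le h6⟩, h6.2⟩)
  refine commutator_le_self _ (commutator_mem_commutator ?_ ?_)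
  · exact commutator_mono le_sup_left le_rfl ((CopAct.commutator_commutator_eq_of_solvable
      le_normalizer_of_normal (m.cop' hTH') (Or.inl m.sP)).ge ht)
  · exact commutator_mono le_sup_right le_rfl (cm_le_self m.sP (m.cop' hM) (mem_cm ha))

theorem false : False := by
  have := m.nH
  have hZ := m.class_two
  have hD : fx P H = ⊥ := by
    rw [← m.fx_inf, eq_comm, inf_eq_left]
    exact (fx_le_inf.trans (m.comm.symm ▸ m.fix_le)).trans hZ
  have hz : ∀ b ∈ H, ∀ c ∈ H, ⁅b, c⁆ ∈ H ⊓ 𝐂(H) := fun b hb c hc =>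
    ⟨commutator_le_self H (commutator_mem_commutator hb hc), hZ (commutator_mem_commutator hb hc)⟩
  have h1 : ∀ a ∈ P, ∀ b ∈ H, b * (a * b * a⁻¹) = a * b * a⁻¹ * b := by
    intro a ha b hb
    have hM := m.cm_le_H hb
    obtain ⟨x, hx, c, hc, e⟩ := exists_cm_mul m.sP (m.cop' hM)
    have hcH : c ∈ H := (mul_mem_cancel_left (hM hx)).1 (e ▸ hb)
    have hy := CopAct.conj_mem le_normalizer_cm ha hx
    have h2 : x * (a * x * a⁻¹) = a * x * a⁻¹ * x := commutatorElement_eq_one_iff_mul_comm.1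
      (hD.le (le_fx hb ⟨commutator_le_self _ (commutator_mem_commutator hx hy),
        m.center_le (hz _ (hM hx) _ (hM hy))⟩))
    have h3 := hZ (m.fix_le ⟨hcH, hc⟩)
    have h4 : a * b * a⁻¹ = a * x * a⁻¹ * c := by
      rw [← e, mul_assoc _ _ c, hc _ (inv_mem ha)]; group
    rw [h4, ← e]
    generalize a * x * a⁻¹ = y at hy h2
    calc x * c * (y * c) = x * (c * y) * c := by group
      _ = y * (x * c) * c := by rw [← h3 y (hM hy), ← mul_assoc x, h2]; group
      _ = y * (c * x) * c := by rw [h3 x (hM hx)]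
      _ = _ := by group
  have h2 : ∀ a ∈ P, ∀ b ∈ H, b⁻¹ * (a ^ 2 * b * (a ^ 2)⁻¹) ∈ 𝐂(H) := by
    intro a ha b hb c' hc'
    obtain ⟨c, hc, rfl⟩ : ∃ c ∈ H, c' = (a * c * a⁻¹)⁻¹ :=
      ⟨a⁻¹ * c'⁻¹ * a, this.conj_mem' _ (inv_mem hc') a, by group⟩
    have e1 := h1 a ha b hb
    have e2 := h1 a ha c hc
    have e3 := h1 a ha _ (mul_mem hb hc)
    have hb' := this.conj_mem b hb a
    have hc' := this.conj_mem c hc a
    have e4 : ⁅c, a * b * a⁻¹⁆ = ⁅a * c * a⁻¹, b⁆ := by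
      rw [show a * (b * c) * a⁻¹ = a * b * a⁻¹ * (a * c * a⁻¹) by group] at e3
      have f1 := (hz _ hc _ hb').2 b hb
      have f2 := (hz _ hc' _ hb).2 _ hb'
      generalize a * b * a⁻¹ = b' at *
      generalize a * c * a⁻¹ = c' at *
      refine mul_right_cancel (b := b * b' * (c * c')) ?_
      calc ⁅c, b'⁆ * (b * b' * (c * c')) = ⁅c, b'⁆ * b * b' * c * c' := by group
        _ = b * c * (b' * c') := by rw [← f1]; simp only [commutatorElement_def]; group
        _ = b' * ⁅c', b⁆ * (b * (c' * c)) := by rw [e3]; simp only [commutatorElement_def]; group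
        _ = _ := by rw [f2, e1, e2]; group
    have e5 := m.center_le (hz _ hc _ hb') a ha
    have e6 : ⁅a * c * a⁻¹, a ^ 2 * b * (a ^ 2)⁻¹⁆ = ⁅a * c * a⁻¹, b⁆ := by
      rw [← e4, ← mul_inv_eq_iff_eq_mul.2 e5]
      simp only [commutatorElement_def, sq]; group
    generalize a * c * a⁻¹ = c' at *
    generalize a ^ 2 * b * (a ^ 2)⁻¹ = b' at *
    calc c'⁻¹ * (b⁻¹ * b') = b⁻¹ * c'⁻¹ * ⁅c', b⁆ * b' := by
          simp only [commutatorElement_def]; group
      _ = _ := by rw [← e6]; simp only [commutatorElement_def]; group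
  have h3 : H ≤ 𝐂(H) := by
    refine m.comm.ge.trans (commutator_le.2 fun b hb a ha => ?_)
    obtain ⟨k, hk⟩ := m.prime.odd_of_ne_two m.odd
    have := h2 (a ^ (k + 1)) (pow_mem ha _) b⁻¹ (inv_mem hb)
    rw [← pow_mul, show (k + 1) * 2 = p + 1 by omega, pow_succ, orderOf_dvd_iff_pow_eq_one.1
      ((orderOf_dvd_natCard _ ha).trans m.cP)] at this
    convert this using 1
    simp only [commutatorElement_def]; group
  exact m.bad (m.fix_le.trans ((commutator_eq_bot_iff_le_centralizer.2 h3).le.trans bot_le))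

end FMin

theorem fix_aux {p : ℕ} (hp : p.Prime) (hp2 : p ≠ 2) (n : ℕ) : ∀ (G : Type u) [Group G] [Finite G]
    (P H : Subgroup G), Nat.card P ∣ p → P ≤ 𝐍(H) → Group.IsSolvable H →
    (Nat.card P).Coprime (Nat.card H) → Nat.card H = n → ⁅H, P⁆ ⊓ 𝐂(P) ≤ fx P H := by
  induction n using Nat.strong_induction_on with
  | _ n ih =>
  have step : ∀ (G : Type u) [Group G] [Finite G] (P H : Subgroup G), Nat.card P ∣ p → H.Normal →
      H ⊔ P = ⊤ → Group.IsSolvable H → (Nat.card P).Coprime (Nat.card H) → Nat.card H = n →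
      ⁅H, P⁆ ⊓ 𝐂(P) ≤ fx P H := by
    intro G _ _ P H hP hn ht hs hc e
    have hsP := isSolvable_of_card_dvd hp hP
    have sub : ∀ K < H, P ≤ 𝐍(K) → ⁅K, P⁆ ⊓ 𝐂(P) ≤ fx P H := fun K hK hPK =>
      (ih _ (e ▸ HT.card_lt_of_lt hK) G P K hP hPK (isSolvable_of_le hK.le)
        (CopAct.coprime_mono hc le_rfl hK.le) rfl).trans (fx_mono hK.le)
    rcases (commutator_le_left H P).lt_or_eq with h | h
    · have := sub _ h (normalizer_commutator_ge_right _ _)
      rwa [CopAct.commutator_commutator_eq_of_solvable le_normalizer_of_normal hc (Or.inl hsP)]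
        at this
    by_contra hbad
    refine FMin.false ⟨hp, hp2, hP, hn, ht, hs, hc, h, sub, fun N hN h0 hNH c hcH => ?_, by rwa [h] at hbad⟩
    have h1 := ih _ ?_ (G ⧸ N) (P.map (QuotientGroup.mk' N)) (H.map (QuotientGroup.mk' N))
      ((card_map_dvd _ _).trans hP) (map_le_normalizer_map le_normalizer_of_normal _)
      (isSolvable_map _ _) ((hc.of_dvd_left (card_map_dvd _ _)).of_dvd_right (card_map_dvd _ _)) rfl
    · rw [← map_commutator, h, ← CopAct.map_inf_centralizer' _ le_normalizer_of_normal hc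
        (Or.inl hsP)] at h1
      obtain ⟨d, hd, e⟩ := fx_map_le _ hsP le_normalizer_of_normal hc (h1 (mem_map_of_mem _ hcH))
      exact ⟨d, hd, d⁻¹ * c, ⟨QuotientGroup.eq.1 e, (centralizer (P : Set G)).mul_mem
        ((centralizer (P : Set G)).inv_mem (fx_le_inf hd).2) hcH.2⟩,
        by group⟩
    · have h2 := relIndex_ker H (QuotientGroup.mk' N)
      rw [QuotientGroup.ker_mk'] at h2
      rw [← h2, ← e, ← HT.card_mul_relIndex hNH]
      exact lt_mul_of_one_lt_left (Nat.pos_of_ne_zero index_ne_zero_of_finite)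
        ((one_lt_card_iff_ne_bot N).2 h0)
  intro G _ _ P H hP hn hs hc e
  have hi := (H ⊔ P).subtype_injective
  have eH : (H.subgroupOf (H ⊔ P)).map (H ⊔ P).subtype = H := map_subgroupOf_eq_of_le le_sup_left
  have eP : (P.subgroupOf (H ⊔ P)).map (H ⊔ P).subtype = P := map_subgroupOf_eq_of_le le_sup_right
  have cH := card_map_of_injective (K := H.subgroupOf (H ⊔ P)) hi
  have cP := card_map_of_injective (K := P.subgroupOf (H ⊔ P)) hi
  rw [eH] at cH
  rw [eP] at cP
  have h1 := step _ (P.subgroupOf (H ⊔ P)) (H.subgroupOf (H ⊔ P)) (cP ▸ hP)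
    (normal_subgroupOf_of_le_normalizer (CopAct.sup_le_normalizer hn))
    (by rw [← subgroupOf_sup le_sup_left le_sup_right, subgroupOf_self])
    (isSolvable_subgroupOf _ _) (cP ▸ cH ▸ hc) (cH ▸ e)
  have h2 := (map_mono h1).trans (map_fx_le (H ⊔ P).subtype)
  rw [eH, eP, map_inf _ _ _ hi, map_commutator, eH, eP, map_centralizer_subtype_eq, eP] at h2
  exact le_trans (le_inf inf_le_left (le_inf (inf_le_left.trans ((CopAct.commutator_le_of_le_normalizer
    hn).trans le_sup_left)) inf_le_right)) h2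

/-- Flavell's theorem on the fixed points of coprime action. -/
theorem commutator_inf_centralizer_eq_fx [Finite G] {p : ℕ} (hp : p.Prime) (hp2 : p ≠ 2)
    (hP : Nat.card P ∣ p) (hn : P ≤ 𝐍(H)) (hs : Group.IsSolvable H)
    (hc : (Nat.card P).Coprime (Nat.card H)) : ⁅H, P⁆ ⊓ 𝐂(P) = fx P H :=
  le_antisymm (fix_aux hp hp2 _ G P H hP hn hs hc rfl) fx_le_inf

end Cfsg.Agent.Flv
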