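import Mathlib
import Cfsg.Agent.GT.Conj
import Cfsg.Agent.GT.MinNormal
import Cfsg.Agent.GT.HallTools
import Cfsg.Agent.GT.CoprimeFixed
import Cfsg.Agent.GT.PGroupChain
import Cfsg.Agent.GT.PStable
import Cfsg.Agent.GT.PSolvable

/-! Auxiliary results for the bound `dim C_V(P) < dim V / 2`. -/

set_option autoImplicit false

namespace Cfsg.Agent.Flv

open Subgroup Cfsg.Agent.GT Module
open scoped commutatorElement

universe u

local notation "𝐂(" X ")" => centralizer ((X : Subgroup _) : Set _)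

/-- An element of prime order permuting the summands of a direct sum. -/
theorem perm_bound {K M Ω Γ : Type*} [Field K] [AddCommGroup M] [Module K M]
    [FiniteDimensional K M] [Finite Ω] [Group Γ] [MulAction Γ Ω] (τ : Γ →* End K M)
    (X : Ω → Submodule K M) (h1 : iSupIndep X) (h2 : ⨆ w, X w = ⊤)
    (hτ : ∀ g w, ∀ v ∈ X w, τ g v ∈ X (g • w)) {m : ℕ} (hm : ∀ w, finrank K (X w) = m) {x : Γ}
    {p : ℕ} (hp : p.Prime) (hx : orderOf x = p) :
    finrank K M = m * Nat.card Ω ∧ p * finrank K (LinearMap.ker (τ x - 1)) ≤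
      m * (Nat.card Ω + (p - 1) * Nat.card (MulAction.fixedBy Ω x)) := by
  classical
  have := Fintype.ofFinite Ω
  have hI := DirectSum.isInternal_submodule_of_iSupIndep_of_iSup_eq_top h1 h2
  let _ := hI.chooseDecomposition
  refine ⟨?_, ?_⟩
  · rw [← (LinearEquiv.ofBijective (DirectSum.coeLinearMap X) hI).finrank_eq, finrank_directSum]
    simp [hm, mul_comm]
  have hd : ∀ g v w, (DirectSum.decompose X (τ g v) (g • w) : M) =
      τ g (DirectSum.decompose X v w) := by
    intro g v w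
    induction v using DirectSum.Decomposition.inductionOn X with
    | zero => simp
    | add a b ha hb => simp [ha, hb]
    | @homogeneous u a =>
      by_cases e : u = w
      · subst e
        rw [DirectSum.decompose_of_mem_same X (hτ g u a a.2), DirectSum.decompose_of_mem_same X a.2]
      · rw [DirectSum.decompose_of_mem_ne X (hτ g u a a.2) (by simpa using e),
          DirectSum.decompose_of_mem_ne X a.2 e, map_zero]
  have : Finite (zpowers x) := Nat.finite_of_card_ne_zero (by rw [Nat.card_zpowers, hx]; exact hp.ne_zero)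
  have := Fintype.ofFinite (zpowers x)
  set O := MulAction.orbitRel.Quotient (zpowers x) Ω with hO
  have : Fintype O := Fintype.ofFinite _
  have h3 : finrank K (LinearMap.ker (τ x - 1)) ≤ m * Fintype.card O := by
    let φ : LinearMap.ker (τ x - 1) →ₗ[K] ((o : O) → X o.out) := LinearMap.pi fun o =>
      (DirectSum.component K Ω (fun w => X w) o.out ∘ₗ (DirectSum.decomposeLinearEquiv X).toLinearMap) ∘ₗ
        Submodule.subtype _
    have hφ : Function.Injective φ := by
      rw [injective_iff_map_eq_zero]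
      rintro ⟨v, hv⟩ h
      have hv' : ∀ g ∈ zpowers x, τ g v = v := fun g hg => by
        obtain ⟨n, rfl⟩ := (isOfFinOrder_iff_pow_eq_one.2
          ⟨p, hp.pos, hx ▸ pow_orderOf_eq_one x⟩).mem_powers_iff_mem_zpowers.2 hg
        have : τ x v = v := sub_eq_zero.1 hv
        simp only [map_pow]
        exact (End.pow_apply _ _ _).trans (Function.IsFixedPt.iterate this n)
      refine Subtype.ext ((DirectSum.decompose X).injective (DFinsupp.ext fun w => ?_))
      obtain ⟨g, hg⟩ : w ∈ MulAction.orbit (zpowers x) (Quotient.out (Quotient.mk'' w : O)) :=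
        MulAction.orbitRel_apply.1 (Quotient.exact (Quotient.out_eq (Quotient.mk'' w : O)).symm)
      have h4 := hd g v (Quotient.out (Quotient.mk'' w : O))
      have h5 : DirectSum.decompose X v (Quotient.out (Quotient.mk'' w : O)) = 0 := congrFun h _
      rw [hv' g g.2, h5, show (g : Γ) • _ = w from hg] at h4
      exact Subtype.ext (by simpa using h4)
    refine (LinearMap.finrank_le_finrank_of_injective hφ).trans ?_
    simp [finrank_pi_fintype, hm, mul_comm]
  have h4 := MulAction.sum_card_fixedBy_eq_card_orbits_mul_card_group (zpowers x) Ω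
  have h5 : Fintype.card (zpowers x) = p := by rw [← Nat.card_eq_fintype_card, Nat.card_zpowers, hx]
  rw [h5, ← Finset.add_sum_erase _ _ (Finset.mem_univ 1)] at h4
  have h6 : ∑ a ∈ Finset.univ.erase (1 : zpowers x), Fintype.card (MulAction.fixedBy Ω a) ≤
      (p - 1) * Nat.card (MulAction.fixedBy Ω x) := by
    refine (Finset.sum_le_card_nsmul _ _ (Nat.card (MulAction.fixedBy Ω x)) fun a ha => ?_).trans
      (by rw [Finset.card_erase_of_mem (Finset.mem_univ _), Finset.card_univ, h5, smul_eq_mul])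
    rw [← Nat.card_eq_fintype_card]
    refine Nat.card_mono (Set.toFinite _) fun w hw => ?_
    have := Fact.mk hp
    obtain ⟨n, hn⟩ := mem_zpowers_of_prime_card (Nat.card_eq_fintype_card.trans h5)
      (Finset.ne_of_mem_erase ha) (g' := ⟨x, mem_zpowers x⟩)
    have := MulAction.fixedBy_subset_fixedBy_zpow Ω a n hw
    rwa [show a ^ n = _ from hn] at this
  have h7 : Fintype.card (MulAction.fixedBy Ω (1 : zpowers x)) ≤ Nat.card Ω := by
    rw [Nat.card_eq_fintype_card]; exact Fintype.card_subtype_le _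
  calc _ ≤ p * (m * Fintype.card O) := Nat.mul_le_mul_left _ h3
    _ = m * (Fintype.card O * p) := by ring
    _ ≤ _ := Nat.mul_le_mul_left _ (by rw [← h4]; omega)

theorem mul_card_inf_le {G : Type*} [Group G] [Finite G] {p r : ℕ} (hp : p.Prime) (hr : r.Prime)
    {N : Subgroup G} [N.Normal] (hN : IsPGroup r N) {y : G} (hy : y ^ p = 1)
    (h : ¬ N ≤ 𝐂(zpowers y)) : ∃ k, 0 < k ∧ (N ⊓ 𝐂(zpowers y)).relIndex N = r ^ k ∧
      (r = p ∨ p ∣ r ^ k - 1) := by
  have := Fact.mk hp
  have := Fact.mk hr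
  obtain ⟨n, hn⟩ := hN.exists_card_eq
  obtain ⟨k, -, hk⟩ := (Nat.dvd_prime_pow hr).1 (hn ▸ relIndex_dvd_card (N ⊓ 𝐂(zpowers y)) N)
  refine ⟨k, Nat.pos_of_ne_zero fun e => h ?_, hk, or_iff_not_imp_left.2 fun hne => ?_⟩
  · rw [e, pow_zero, relIndex_eq_one] at hk
    exact hk.trans inf_le_right
  have h1 := card_modEq_card_inf_centralizer (p := p) (Q := zpowers y) (L := N)
    (IsPGroup.of_card_dvd_pow (n := 1) (by
      rw [Nat.card_zpowers, pow_one]; exact orderOf_dvd_of_pow_eq_one hy)) le_normalizer_of_normal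
  rw [← HT.card_mul_relIndex (inf_le_left : N ⊓ 𝐂(zpowers y) ≤ N), hk] at h1
  have h2 : p.Coprime (Nat.card ↥(N ⊓ 𝐂(zpowers y))) :=
    (((Nat.coprime_primes hp hr).2 (Ne.symm hne)).pow_right n).of_dvd_right
      (hn ▸ card_dvd_of_le inf_le_left)
  exact (Nat.modEq_iff_dvd' (Nat.one_le_pow _ _ hr.pos)).1
    (Nat.ModEq.cancel_left_of_coprime h2 (by rwa [mul_one])).symm

theorem card_conj_le {p : ℕ} (hp : p.Prime) (G : Type u) [Group G] [Finite G] [Group.IsSolvable G] :
    ∀ (x : G) (H : Subgroup G), x ^ p = 1 → normalClosure {x} = ⊤ → H ≠ ⊤ →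
      p * Nat.card {g : G | g⁻¹ * x * g ∈ H} ≤ Nat.card G := by
  refine solvable_induction (P := fun G _ _ _ => ∀ (x : G) (H : Subgroup G), x ^ p = 1 →
    normalClosure {x} = ⊤ → H ≠ ⊤ → p * Nat.card {g : G | g⁻¹ * x * g ∈ H} ≤ Nat.card G)
    (fun G _ _ _ _ x H _ _ h => (h (Subsingleton.elim _ _)).elim) ?_ G
  intro G _ _ _ N _ r hr hN hE ih x H hx hG hH
  by_cases h : H ⊔ N = ⊤
  swap
  · have h1 := ih x (H.map (QuotientGroup.mk' N)) (by rw [← QuotientGroup.mk_pow, hx]; rfl)
      (by rw [← QuotientGroup.mk'_apply, ← Set.image_singleton, ← map_normalClosure _ _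
        (QuotientGroup.mk'_surjective N), hG, map_top_of_surjective _
        (QuotientGroup.mk'_surjective N)]) (by rwa [Ne, map_mk'_eq_top_iff])
    rw [card_eq_card_quotient_mul_card_subgroup N]
    refine le_trans ?_ (Nat.mul_le_mul_right _ h1)
    rw [mul_assoc, mul_comm _ (Nat.card N), ← QuotientGroup.card_preimage_mk]
    exact Nat.mul_le_mul_left _ (Nat.card_mono (Set.toFinite _) fun g hg =>
      mem_map_of_mem (QuotientGroup.mk' N) hg)
  have hc : IsMulCommutative N := hE.1
  have hHN : N ⊓ H = ⊥ := by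
    have : (N ⊓ H).Normal := normal_of_sup_eq_top h
      (CopAct.le_normalizer_inf le_normalizer_of_normal le_normalizer)
      (le_normalizer_of_le_of_comm inf_le_left)
    exact (hN.eq_bot_or_eq inf_le_left).resolve_right fun e =>
      hH (by rw [← h, eq_comm, sup_eq_left]; exact inf_eq_left.1 e)
  rcases Set.eq_empty_or_nonempty {g : G | g⁻¹ * x * g ∈ H} with e | ⟨a, ha⟩
  · simp [e]
  replace ha : a⁻¹ * x * a ∈ H := ha
  have hy : (a⁻¹ * x * a) ^ p = 1 := by
    rw [show a⁻¹ * x * a = a⁻¹ * x * a⁻¹⁻¹ by group, conj_pow, hx]; group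
  have hle : ∀ L : Subgroup G, L.Normal → a⁻¹ * x * a ∈ L → L = ⊤ := fun L hL h =>
    eq_top_iff.2 (hG.ge.trans (normalClosure_le_normal (by
      rintro _ rfl
      simpa [mul_assoc] using hL.conj_mem _ h a)))
  have key : ∀ g : {g : G | g⁻¹ * x * g ∈ H}, ∃ n ∈ N ⊓ 𝐂(zpowers (a⁻¹ * x * a)), ∃ k ∈ H,
      a * (n * k) = g := by
    rintro ⟨g, hg⟩
    obtain ⟨n, hn, k, hk, e⟩ := (CopAct.mem_sup_iff_of_le_normalizer (K := N) (A := H)
      le_normalizer_of_normal (g := a⁻¹ * g)).1 (by rw [sup_comm, h]; trivial)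
    refine ⟨n, ⟨hn, ?_⟩, k, hk, by rw [e]; group⟩
    obtain rfl : g = a * (n * k) := by rw [e]; group
    generalize hy : a⁻¹ * x * a = y at ha
    have h1 : n⁻¹ * (y * n * y⁻¹) ∈ N ⊓ H := by
      refine mem_inf.2 ⟨N.mul_mem (N.inv_mem hn) (hN.normal.conj_mem n hn y), ?_⟩
      have := H.mul_mem (H.mul_mem (H.mul_mem hk hg) (H.inv_mem hk)) (H.inv_mem ha)
      convert this using 1
      rw [← hy]; group
    rw [hHN, mem_bot, inv_mul_eq_one, eq_mul_inv_iff_mul_eq] at h1
    rw [centralizer_zpowers]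
    exact mem_centralizer_singleton_iff.2 h1
  generalize a⁻¹ * x * a = y at ha hy hle key
  choose n hn k hk e using key
  have h1 : Nat.card {g : G | g⁻¹ * x * g ∈ H} ≤ Nat.card ↥(N ⊓ 𝐂(zpowers y)) * Nat.card H := by
    rw [← Nat.card_prod]
    refine Nat.card_le_card_of_injective (fun g => ((⟨_, hn g⟩, ⟨_, hk g⟩) : ↥(N ⊓ _) × H))
      fun g g' h => Subtype.ext ?_
    rw [← e, ← e, show n g = n g' from congrArg (fun z => (z.1 : G)) h,
      show k g = k g' from congrArg (fun z => (z.2 : G)) h]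
  obtain ⟨j, hj0, hj, hpj⟩ := mul_card_inf_le hp hr (isPGroup_of_forall_pow_eq_one hE.2) hy fun hc => by
    have h2 := hle 𝐂(N) inferInstance (le_centralizer_iff.1 hc (mem_zpowers y))
    exact hH (hle H (normal_of_sup_eq_top h le_normalizer (le_normalizer_of_le_centralizer
      (le_centralizer_iff.1 (h2 ▸ le_top)))) ha)
  have h2 : p ≤ r ^ j := by
    rcases hpj with rfl | h
    · exact Nat.le_self_pow hj0.ne' _
    · exact (Nat.le_of_dvd (Nat.sub_pos_of_lt (Nat.one_lt_pow hj0.ne' hr.one_lt)) h).trans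
        (Nat.sub_le _ _)
  have h3 := CopAct.card_sup_of_inf_eq_bot (K := N) (A := H) le_normalizer_of_normal hHN
  rw [sup_comm, h, card_top, ← HT.card_mul_relIndex (inf_le_left : N ⊓ 𝐂(zpowers y) ≤ N), hj] at h3
  rw [h3]
  nlinarith [Nat.mul_le_mul h2 h1]

theorem card_fixedBy_le {G Ω : Type*} [Group G] [Finite G] [Group.IsSolvable G] [MulAction G Ω]
    [MulAction.IsPretransitive G Ω] [Nontrivial Ω] {p : ℕ} (hp : p.Prime) {x : G} (hx : x ^ p = 1)
    (hG : normalClosure {x} = ⊤) : p * Nat.card (MulAction.fixedBy Ω x) ≤ Nat.card Ω := by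
  obtain ⟨a, b, hab⟩ := exists_pair_ne Ω
  choose s hs using fun w : Ω => MulAction.exists_smul_eq G a w
  have h1 := card_conj_le hp G x (MulAction.stabilizer G a) hx hG fun e =>
    hab ((show s b • a = a from e.ge (mem_top _)).symm.trans (hs b))
  rw [← (MulAction.stabilizer G a).index_mul_card, MulAction.index_stabilizer_of_transitive] at h1
  refine Nat.le_of_mul_le_mul_right (le_trans ?_ h1) (Nat.card_pos (α := MulAction.stabilizer G a))
  rw [mul_assoc, ← Nat.card_prod]
  refine Nat.mul_le_mul_left _ (Nat.card_le_card_of_injective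
    (fun z => ⟨s z.1 * z.2, ?_⟩) fun z w h => ?_)
  · change _ • a = a
    rw [mul_smul, mul_smul, mul_smul (s _), show (z.2 : G) • a = a from z.2.2, hs, z.1.2,
      inv_smul_eq_iff, mul_smul, show (z.2 : G) • a = a from z.2.2, hs]
  · have h2 : s z.1 * z.2 = s w.1 * w.2 := congrArg Subtype.val h
    have h3 := congrArg (· • a) h2
    simp only [mul_smul, show (z.2 : G) • a = a from z.2.2, show (w.2 : G) • a = a from w.2.2,
      hs] at h3
    rw [h3] at h2
    exact Prod.ext (Subtype.ext h3) (Subtype.ext (mul_left_cancel h2))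

/-- no transvections of order `p ≥ 5` on a chief factor of a solvable group -/
theorem le_centralizer_of_quadratic {G : Type*} [Group G] [Finite G] [Group.IsSolvable G] {p : ℕ}
    (hp : p.Prime) (h5 : 5 ≤ p) {x : G} (hx : x ^ p = 1) (hG : normalClosure {x} = ⊤)
    {W : Subgroup G} (hW : IsMinNormal W) (hq : ⁅⁅W, zpowers x⁆, zpowers x⁆ = ⊥) :
    x ∈ 𝐂(W) := by
  have := Fact.mk hp
  have := hW.normal
  obtain ⟨r, hr, hE⟩ := hW.elementary
  have := Fact.mk hr
  have hP : IsPGroup p (zpowers x) := IsPGroup.of_card_dvd_pow (n := 1) (by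
      rw [Nat.card_zpowers, pow_one]; exact orderOf_dvd_of_pow_eq_one hx)
  have hWr := isPGroup_of_forall_pow_eq_one hE.2
  by_cases e : r = p
  swap
  · exact CopAct.le_centralizer_of_commutator_commutator_eq_bot le_normalizer_of_normal
      (IsPGroup.coprime_card_of_ne p r (Ne.symm e) _ _ hP hWr) hq (mem_zpowers x)
  subst e
  have h1 := isPStableOn_of_isElementaryAbelian (by omega) W hE (not_involves_sl2_of_isPSolvable h5
    (isPSolvable_of_isSolvable inferInstance)) x hq
  have h2 : ⊤ ≤ (pCore r (G ⧸ 𝐂(W))).comap (QuotientGroup.mk' _) :=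
    hG.ge.trans (normalClosure_le_normal (by rintro _ rfl; exact h1))
  obtain ⟨S⟩ : Nonempty (Sylow r G) := inferInstance
  have h3 : (S : Subgroup G) ⊔ 𝐂(W) = ⊤ := by
    rw [← map_mk'_eq_top_iff]
    have := (S.mapSurjective (QuotientGroup.mk'_surjective 𝐂(W))).3 (Q := ⊤)
      (IsPGroup.to_le (K := pCore r _) (isPGroup_pCore r) fun g _ => by
        obtain ⟨g, rfl⟩ := QuotientGroup.mk_surjective g
        exact h2 (mem_top g)) le_top
    exact this.symm
  have h4 : (W ⊓ 𝐂((S : Subgroup G))).Normal := normal_of_sup_eq_top h3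
    (le_normalizer_of_le_centralizer (le_centralizer_iff.1
      (inf_le_right : W ⊓ 𝐂((S : Subgroup G)) ≤ _)))
    (le_normalizer_of_le_centralizer (centralizer_anti inf_le_left))
  have h6 := (hW.eq_bot_or_eq (K := W ⊓ 𝐂((S : Subgroup G))) inf_le_left).resolve_left
    (PG.inf_centralizer_ne_bot_of_isPGroup hWr S.2 le_normalizer_of_normal hW.ne_bot)
  exact (h3.ge.trans (sup_le (le_centralizer_iff.1 (inf_eq_left.1 h6)) le_rfl)) (mem_top x)

theorem index_bound {G : Type*} [Group G] [Finite G] [Group.IsSolvable G] {p : ℕ}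
    (hp : p.Prime) (h5 : 5 ≤ p) {x : G} (hx : x ^ p = 1) (hG : normalClosure {x} = ⊤)
    {E : Subgroup G} (hE : IsChiefFactor E (center G)) (hR : E ⊓ 𝐂(E) ≤ center G) :
    ∃ i, Nat.card (E.map (QuotientGroup.mk' (center G))) = i *
      Nat.card ↥(E.map (QuotientGroup.mk' (center G)) ⊓ 𝐂(zpowers (x : G ⧸ center G))) ∧
      4 * (i + (p - 1)) ≤ p * i := by
  have hEn := hE.2.1
  have hW := hE.isMinNormal_map
  set π := QuotientGroup.mk' (center G) with hπ
  set W := E.map π with hWd
  have := hW.normal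
  have hx' : (x : G ⧸ center G) ^ p = 1 := by rw [← QuotientGroup.mk_pow, hx]; rfl
  have hG' : normalClosure {(x : G ⧸ center G)} = ⊤ := by
    rw [← QuotientGroup.mk'_apply, ← Set.image_singleton, ← map_normalClosure _ _
      (QuotientGroup.mk'_surjective _), hG, map_top_of_surjective _ (QuotientGroup.mk'_surjective _)]
  obtain ⟨r, hr, hel⟩ := hW.elementary
  have hZ : ∀ {L : Subgroup G}, center G ≤ 𝐂(L) := fun {L} => center_le_centralizer _
  have hcyc : ∀ (D : Subgroup G) (b : G), D ⊔ zpowers b = E → b ∈ 𝐂(D) → b ∈ center G :=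
    fun D b h hb => hR ⟨h.le (mem_sup_right (mem_zpowers b)), by
      rw [← h, centralizer_sup, centralizer_zpowers]
      exact ⟨hb, mem_centralizer_singleton_iff.2 rfl⟩⟩
  have h1 : (x : G ⧸ center G) ∉ 𝐂(W) := fun h => by
    have h2 : ⊤ ≤ 𝐂(W) := hG'.ge.trans (normalClosure_le_normal (by rintro _ rfl; exact h))
    obtain ⟨b, hb, hb'⟩ := SetLike.exists_of_lt hE.1
    have h3 : (zpowers (π b)).Normal := ⟨fun n hn g => by
      have : n * g = g * n := h2 (mem_top g) n (zpowers_le.2 (mem_map_of_mem π hb) hn)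
      rwa [← this, mul_inv_cancel_right]⟩
    have h4 : (center G ⊔ zpowers b).Normal := by
      rw [sup_comm, ← comap_map_mk', MonoidHom.map_zpowers]; exact h3.comap _
    rcases hE.2.2.2 _ h4 le_sup_left (sup_le hE.1.le (zpowers_le.2 hb)) with e | e
    · exact hb' (e.le (mem_sup_right (mem_zpowers b)))
    · exact hb' (hcyc _ b e fun z hz => (mem_center_iff.1 hz b).symm)
  obtain ⟨k, hk0, hk, hpk⟩ := mul_card_inf_le hp hr (isPGroup_of_forall_pow_eq_one hel.2) hx'
    fun h => h1 (le_centralizer_iff.1 h (mem_zpowers _))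
  have h2 : k ≠ 1 := by
    rintro rfl
    refine h1 (le_centralizer_of_quadratic hp h5 hx' hG' hW ?_)
    set D := (W ⊓ 𝐂(zpowers (x : G ⧸ center G))).comap π with hD
    have hDE : D ≤ E := fun d hd => by
      have : d ∈ E ⊔ center G := comap_map_mk' (N := center G) E ▸ hd.1
      rwa [sup_eq_left.2 hE.1.le] at this
    have hDx : ⁅zpowers x, D⁆ ≤ center G := by
      rw [commutator_le_iff_map_mk', map_comap_mk', MonoidHom.map_zpowers,
        commutator_eq_bot_iff_le_centralizer]
      exact le_centralizer_iff.1 inf_le_right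
    have a1 : ⁅⁅E, zpowers x⁆, D⁆ = ⊥ := commutator_commutator_eq_bot_of_rotate
      (commutator_eq_bot_iff_le_centralizer.2 (hDx.trans hZ))
      (commutator_eq_bot_iff_le_centralizer.2
        (((commutator_mono hDE le_rfl).trans hE.elementary.1).trans hZ))
    have a2 : ⁅E, zpowers x⁆ ≤ D := fun b hb => by
      by_contra hn
      have hbE := commutator_le_left _ _ hb
      refine hn (le_comap_mk' _ (hcyc D b ?_ (commutator_eq_bot_iff_le_centralizer.1 a1 hb)))
      have a3 : D.relIndex E = r := by rw [hD, relIndex_comap, ← hWd, hk, pow_one]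
      have a4 := relIndex_mul_relIndex D (D ⊔ zpowers b) E le_sup_left (sup_le hDE (zpowers_le.2 hbE))
      rw [a3] at a4
      rcases (Nat.dvd_prime hr).1 (Dvd.intro _ a4) with e | e
      · exact (hn (relIndex_eq_one.1 e (mem_sup_right (mem_zpowers b)))).elim
      · rw [e] at a4
        exact le_antisymm (sup_le hDE (zpowers_le.2 hbE))
          (relIndex_eq_one.1 (Nat.eq_of_mul_eq_mul_left hr.pos (a4.trans (mul_one _).symm)))
    have a3 := map_mono (f := π) a2
    rw [map_commutator, map_comap_mk', MonoidHom.map_zpowers] at a3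
    exact commutator_eq_bot_iff_le_centralizer.2 (a3.trans inf_le_right)
  refine ⟨r ^ k, by rw [← hk, mul_comm, HT.card_mul_relIndex inf_le_left], ?_⟩
  obtain ⟨j, rfl⟩ : ∃ j, k = j + 2 := ⟨k - 2, by omega⟩
  have h3 : 1 ≤ r ^ j := Nat.one_le_pow _ _ hr.pos
  obtain ⟨q, rfl⟩ : ∃ q, p = q + 5 := ⟨p - 5, by omega⟩
  rw [show q + 5 - 1 = q + 4 by omega]
  rcases hpk with rfl | ⟨t, ht⟩
  · rw [pow_add]; nlinarith [Nat.mul_le_mul h3 (le_refl ((q + 5) ^ 2))]
  have h4 : 1 < r ^ (j + 2) := Nat.one_lt_pow (by omega) hr.one_lt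
  have h6 : r ^ (j + 2) = (q + 5) * t + 1 := by omega
  have h7 : r * r ∣ (q + 5) * t + 1 := h6 ▸ Dvd.intro_left (r ^ j) (by ring)
  rw [h6] at h4 ⊢
  have ht0 : t ≠ 0 := by rintro rfl; omega
  rcases Nat.eq_zero_or_pos q with rfl | hq
  · by_cases h8 : 3 ≤ t
    · omega
    have := hr.two_le
    have h9 : r ≤ 3 := by
      have := Nat.le_of_dvd (by omega) h7
      nlinarith
    obtain rfl | rfl : t = 1 ∨ t = 2 := by omega
    all_goals interval_cases r <;> omega
  have : q ≠ 1 := by rintro rfl; exact absurd hp (by norm_num)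
  obtain ⟨s, rfl⟩ : ∃ s, t = s + 1 := ⟨t - 1, by omega⟩
  obtain ⟨q, rfl⟩ : ∃ s, q = s + 2 := ⟨q - 2, by omega⟩
  nlinarith [Nat.zero_le (q * q * s), Nat.zero_le (q * s), Nat.zero_le (q * q)]

end Cfsg.Agent.Flv
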