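import Mathlib
import Cfsg.Agent.GT.StableClosure
import Cfsg.Agent.GT.PGroupBasic
import Cfsg.Agent.GT.PGroupCyclicNormal
import Cfsg.Agent.GT.CoprimeGen
import Cfsg.Agent.GT.LocalLayer
import Cfsg.Agent.GT.Conj
import Cfsg.Agent.Loc.TechBasic
import Cfsg.Agent.Inv.SylowTools
import Cfsg.Agent.FG.H93Cyc

/-!
# Groups in which every two elements generate a solvable subgroup, I

A minimal counterexample `G` is simple.  For a prime `p ≥ 5` dividing `|G|` all `p`-local subgroups
have trivial `p'`-core, and `M = N_G(W(S))` is strongly `p`-embedded.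
-/

set_option autoImplicit false
set_option linter.unusedSectionVars false

namespace Cfsg.Agent.Flv

open Subgroup Cfsg.Agent.GT
open scoped Pointwise

universe u

/-- `x` has order prime to `p`. -/
def PReg {G : Type*} [Group G] (p : ℕ) (x : G) : Prop := (orderOf x).Coprime p

section PReg

variable {G G' : Type*} [Group G] [Group G'] {p : ℕ}

theorem preg_map_iff [Finite G] {f : G →* G'} (hf : (Nat.card f.ker).Coprime p) (x : G) :
    PReg p (f x) ↔ PReg p x := by
  refine ⟨fun h => ?_, fun h => Nat.Coprime.coprime_dvd_left (orderOf_map_dvd f x) h⟩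
  have h1 : x ^ orderOf (f x) ∈ f.ker := by rw [MonoidHom.mem_ker, map_pow, pow_orderOf_eq_one]
  have h2 : x ^ (orderOf (f x) * Nat.card f.ker) = 1 := by
    rw [pow_mul]; exact orderOf_dvd_iff_pow_eq_one.1 (Subgroup.orderOf_dvd_natCard _ h1)
  exact Nat.Coprime.coprime_dvd_left (orderOf_dvd_of_pow_eq_one h2) (Nat.Coprime.mul_left h hf)

theorem preg_coe {H : Subgroup G} (x : H) : PReg p (x : G) ↔ PReg p x := by
  rw [PReg, PReg, orderOf_coe]

theorem preg_conj (x g : G) : PReg p (g * x * g⁻¹) ↔ PReg p x := by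
  rw [PReg, PReg, GT.orderOf_conj]

theorem preg_one : PReg p (1 : G) := by simp [PReg]

theorem PReg.eq_one {x : G} (h : PReg p x) {k : ℕ} (hk : x ^ p ^ k = 1) : x = 1 :=
  orderOf_eq_one_iff.1 ((h.pow_right k).eq_one_of_dvd (orderOf_dvd_of_pow_eq_one hk))

theorem PReg.eq_one_of_mem {x : G} (h : PReg p x) {Q : Subgroup G} (hQ : IsPGroup p Q)
    (hx : x ∈ Q) : x = 1 := by
  obtain ⟨k, hk⟩ := hQ ⟨x, hx⟩
  exact h.eq_one (k := k) (by simpa using congrArg Subtype.val hk)

theorem preg_of_mem {T : Subgroup G} (hT : (Nat.card T).Coprime p) {x : G} (hx : x ∈ T) :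
    PReg p x := Nat.Coprime.coprime_dvd_left (Subgroup.orderOf_dvd_natCard _ hx) hT

/-- The projection `K → K / O_{p'}(K)`. -/
abbrev prj (p : ℕ) (K : Type*) [Group K] : K →* K ⧸ pPrimeCore p K :=
  QuotientGroup.mk' (pPrimeCore p K)

theorem preg_prj [Finite G] (x : G) : PReg p (prj p G x) ↔ PReg p x :=
  preg_map_iff (by rw [QuotientGroup.ker_mk']; exact coprime_card_pPrimeCore p) x

theorem preg_mul [Finite G] {H : Subgroup G} {a g : G} (ha : a ∈ pPrimeCoreOf p H) (hg : g ∈ H)
    (h : PReg p g) : PReg p (a * g) := by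
  have haH : a ∈ H := pPrimeCoreOf_le _ ha
  have ha' : (⟨a, haH⟩ : H) ∈ pPrimeCore p H := by
    rw [← pPrimeCoreOf_subgroupOf]; exact ha
  have : prj p H (⟨a, haH⟩ * ⟨g, hg⟩) = prj p H ⟨g, hg⟩ := by
    rw [map_mul, show prj p H ⟨a, haH⟩ = 1 from (QuotientGroup.eq_one_iff _).2 ha', one_mul]
  have h1 : PReg p (⟨g, hg⟩ : H) := (preg_coe (⟨g, hg⟩ : H)).1 h
  rw [← preg_prj, ← this, preg_prj, ← preg_coe] at h1
  exact h1

theorem orderOf_prj [Finite G] [hp : Fact p.Prime] {x : G} (hx : orderOf x = p) :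
    orderOf (prj p G x) = p := by
  refine orderOf_eq_prime (by rw [← map_pow, ← hx, pow_orderOf_eq_one, map_one]) fun e => ?_
  have : PReg p x := (preg_prj x).1 (e ▸ preg_one)
  rw [PReg, hx, Nat.coprime_self] at this
  exact hp.out.ne_one this

theorem isPGroup_of_orderOf {x : G} (hx : orderOf x = p) : IsPGroup p (zpowers x) :=
  Loc.isPGroup_zpowers_of_orderOf_eq hx

/-- A solvable group with cyclic Sylow `p`-subgroups has, modulo its `p'`-core, only one subgroup
of order `p`. -/
theorem zpowers_eq_of_cyclic [Finite G] [Fact p.Prime] (hG : Group.IsSolvable G)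
    (hc : ∀ T : Sylow p G, IsCyclic (T : Subgroup G)) {x y : G ⧸ pPrimeCore p G}
    (hx : orderOf x = p) (hy : orderOf y = p) : zpowers x = zpowers y := by
  have hchar := (isPSolvable_of_isSolvable (p := p) hG).charP_quotient
  have key : ∀ T : Sylow p (G ⧸ pPrimeCore p G),
      IsCyclic (T : Subgroup (G ⧸ pPrimeCore p G)) ∧
        (T : Subgroup (G ⧸ pPrimeCore p G)) = pCore p (G ⧸ pPrimeCore p G) := fun T => by
    obtain ⟨T₀, rfl⟩ := Sylow.mapSurjective_surjective (QuotientGroup.mk'_surjective _) p T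
    have := hc T₀
    have h1 : IsCyclic ((T₀ : Subgroup G).map (prj p G)) :=
      isCyclic_of_surjective _ (MonoidHom.subgroupMap_surjective (prj p G) T₀)
    refine ⟨h1, le_antisymm (le_trans ?_ hchar) (pCore_le_sylow _)⟩
    refine le_trans ?_ (centralizer_anti (pCore_le_sylow
      (T₀.mapSurjective (QuotientGroup.mk'_surjective _))))
    exact PG.isMulCommutative_iff_le_centralizer.1 h1.isMulCommutative
  obtain ⟨T, hT⟩ := (isPGroup_of_orderOf hx).exists_le_sylow
  obtain ⟨T', hT'⟩ := (isPGroup_of_orderOf hy).exists_le_sylow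
  have := (key T).1
  refine FG.H93.eq_of_card_eq_of_isCyclic hT (by rwa [(key T).2, ← (key T').2]) ?_
  rw [Nat.card_zpowers, Nat.card_zpowers, hx, hy]

theorem zpowers_normal_of_cyclic [Finite G] [Fact p.Prime] (hG : Group.IsSolvable G)
    (hc : ∀ T : Sylow p G, IsCyclic (T : Subgroup G)) {x : G ⧸ pPrimeCore p G}
    (hx : orderOf x = p) : (zpowers x).Normal :=
  normal_iff_forall_map_conj.2 fun g => by
    rw [map_conj_zpowers]
    exact zpowers_eq_of_cyclic hG hc (by rw [GT.orderOf_conj, hx]) hx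

end PReg

/-- The minimal counterexample, with a prime `p ≥ 5` dividing its order. -/
structure MC (G : Type u) [Group G] (p : ℕ) : Prop where
  simple : IsSimpleGroup G
  nsolv : ¬ Group.IsSolvable G
  proper : ∀ H : Subgroup G, H ≠ ⊤ → Group.IsSolvable H
  two : ∀ a b : G, Group.IsSolvable (closure ({a, b} : Set G))
  dvd : p ∣ Nat.card G
  five : 5 ≤ p

namespace MC

variable {G : Type u} [Group G] [Finite G] {p : ℕ} [hp : Fact p.Prime] (h : MC G p)
include h

theorem ne_top_of_solvable {X : Subgroup G} (hX : Group.IsSolvable X) : X ≠ ⊤ := by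
  rintro rfl
  exact h.nsolv (Group.isSolvable_of_surjective (f := (⊤ : Subgroup G).subtype)
    fun x => ⟨⟨x, mem_top x⟩, rfl⟩)

theorem normalizer_ne_top {X : Subgroup G} (h0 : X ≠ ⊥) (h1 : X ≠ ⊤) :
    normalizer (X : Set G) ≠ ⊤ := fun e =>
  (h.simple.eq_bot_or_eq_top_of_normal X (normalizer_eq_top_iff.1 e)).elim h0 h1

theorem ne_top_of_isPGroup {X : Subgroup G} (hX : IsPGroup p X) : X ≠ ⊤ :=
  h.ne_top_of_solvable (have := hX.isNilpotent; inferInstance)

theorem solv_normalizer {X : Subgroup G} (h0 : X ≠ ⊥) (hX : IsPGroup p X) :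
    Group.IsSolvable (normalizer (X : Set G)) :=
  h.proper _ (h.normalizer_ne_top h0 (h.ne_top_of_isPGroup hX))

theorem solv_centralizer {X : Subgroup G} (h0 : X ≠ ⊥) (hX : IsPGroup p X) :
    Group.IsSolvable (centralizer (X : Set G)) :=
  h.proper _ fun e => h.normalizer_ne_top h0 (h.ne_top_of_isPGroup hX)
    (top_le_iff.1 (e ▸ PG.centralizer_le_normalizer' X))

/-- An element whose products with `p`-regular elements are `p`-regular is trivial. -/
theorem eq_one_of_forall {a : G} (ha : ∀ g, PReg p g → PReg p (a * g)) : a = 1 := by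
  let N : Subgroup G :=
    { carrier := {a | ∀ g, PReg p g → PReg p (a * g)}
      one_mem' := fun g hg => by rwa [one_mul]
      mul_mem' := fun {a b} ha hb g hg => by rw [mul_assoc]; exact ha _ (hb g hg)
      inv_mem' := fun {a} ha => by
        have key : ∀ n : ℕ, ∀ g, PReg p g → PReg p (a ^ n * g) := fun n => by
          induction n with
          | zero => intro g hg; simpa using hg
          | succ n ih => intro g hg; rw [pow_succ', mul_assoc]; exact ha _ (ih g hg)
        have e : a⁻¹ = a ^ (orderOf a - 1) := inv_eq_of_mul_eq_one_right (by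
          rw [← pow_succ', Nat.sub_add_cancel (orderOf_pos a), pow_orderOf_eq_one])
        rw [Set.mem_ofPred_eq, e]; exact key _ }
  have hN : N.Normal := ⟨fun a ha c g hg => by
    have := (preg_conj _ c).2 (ha _ ((preg_conj g c⁻¹).2 hg))
    rwa [show c * (a * (c⁻¹ * g * c⁻¹⁻¹)) * c⁻¹ = c * a * c⁻¹ * g by group] at this⟩
  rcases h.simple.eq_bot_or_eq_top_of_normal N hN with e | e
  · exact mem_bot.1 (e ▸ (ha : a ∈ N))
  · obtain ⟨x, hx⟩ := exists_prime_orderOf_dvd_card' p h.dvd
    have : PReg p (x * 1) := (e ▸ mem_top x : x ∈ N) 1 preg_one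
    rw [mul_one, PReg, hx, Nat.coprime_self] at this
    exact absurd this hp.out.ne_one

theorem core_centralizer_zpowers {d : G} (hd : IsPGroup p (zpowers d)) :
    pPrimeCoreOf p (centralizer (zpowers d : Set G)) = ⊥ := by
  refine eq_bot_iff.2 fun a ha => mem_bot.2 (h.eq_one_of_forall fun g hg => ?_)
  have hda : Commute d a := mem_centralizer_iff.1 (pPrimeCoreOf_le _ ha) d (mem_zpowers d)
  have hra : PReg p a := preg_of_mem (coprime_card_pPrimeCoreOf p _) ha
  obtain ⟨k, hk⟩ := hd ⟨d, mem_zpowers d⟩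
  have hk' : d ^ p ^ k = 1 := by simpa using congrArg Subtype.val hk
  set H := closure ({d * a, g} : Set G)
  have h1 : d * a ∈ H := subset_closure (by simp)
  have haH : a ∈ H := by
    obtain ⟨m, hm⟩ := exists_pow_eq_self_of_coprime (x := a) (n := p ^ k) (hra.pow_right k).symm
    have := pow_mem (pow_mem h1 (p ^ k)) m
    rwa [hda.mul_pow, hk', one_mul, hm] at this
  have hdH : zpowers d ≤ H := zpowers_le.2 ((mul_mem_cancel_right haH).1 h1)
  have e := Loc.pPrimeCoreOf_inf_centralizer (isPConstrained_of_isSolvable (h.two _ _)) hd hdH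
  have : a ∈ pPrimeCoreOf p (H ⊓ centralizer (zpowers d : Set G)) :=
    pPrimeCoreOf_inf_le inf_le_right ⟨ha, haH, pPrimeCoreOf_le _ ha⟩
  rw [e] at this
  exact preg_mul this.1 (subset_closure (by simp)) hg

theorem core_normalizer {X : Subgroup G} (h0 : X ≠ ⊥) (hX : IsPGroup p X) :
    pPrimeCoreOf p (normalizer (X : Set G)) = ⊥ := by
  have := hX.isNilpotent
  obtain ⟨n, hn⟩ := PG.exists_iterCommutator_eq_bot_of_isNilpotent (le_refl X) le_rfl
  obtain ⟨d, hd, hd1⟩ := (Subgroup.bot_or_exists_ne_one _).resolve_left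
    (PG.inf_centralizer_ne_bot_of_iterCommutator hn le_normalizer h0)
  have hD : zpowers d ≤ X := zpowers_le.2 hd.1
  have hDp := hX.to_le hD
  have e := Loc.pPrimeCoreOf_inf_centralizer (isPConstrained_of_isSolvable
    (h.solv_centralizer (zpowers_eq_bot.not.2 hd1) hDp)) hX
    (le_centralizer_iff.1 (zpowers_le.2 hd.2))
  rw [h.core_centralizer_zpowers hDp, bot_inf_eq, inf_eq_right.2 (centralizer_anti hD)] at e
  rw [← pPrimeCoreOf_centralizer_eq hp.out hX, e]

theorem le_normalizer_wOf {X R : Subgroup G} (h0 : X ≠ ⊥) (hX : IsPGroup p X)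
    (hR : IsPGroup p R) (hRX : R ≤ normalizer (X : Set G))
    (hmax : ∀ R' : Subgroup G, IsPGroup p R' → R ≤ R' → R' ≤ normalizer (X : Set G) → R' = R) :
    normalizer (X : Set G) ≤ normalizer (wOf p R : Set G) := by
  set H := normalizer (X : Set G)
  have hs := h.solv_normalizer h0 hX
  let T : Sylow p H := ⟨R.subgroupOf H, hR.comap_subtype, fun {Q} hQ hle => by
    have := hmax (Q.map H.subtype) (hQ.map _) (by
      rw [← map_subgroupOf_eq_of_le hRX]; exact map_mono hle) (map_subtype_le _)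
    rw [← this, subgroupOf, comap_map_eq_self_of_injective H.subtype_injective]⟩
  have hn := wOf_normal_of_not_involves (by have := h.five; omega)
    (not_involves_sl2_of_isPSolvable h.five (isPSolvable_of_isSolvable hs))
    ((isPSolvable_of_isSolvable hs).centralizer_pCore_le
      (pPrimeCoreOf_eq_bot_iff.1 (h.core_normalizer h0 hX))) T
  rw [show (T : Subgroup H) = R.subgroupOf H from rfl, wOf_subgroupOf hRX] at hn
  exact (normal_subgroupOf_iff_le_normalizer ((wOf_le R).trans hRX)).1 hn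

omit h in
theorem wOf_conj (R : Subgroup G) (g : G) :
    wOf p (R.map (MulAut.conj g).toMonoidHom) = (wOf p R).map (MulAut.conj g).toMonoidHom :=
  wOf_map _ (by
    rw [(MonoidHom.ker_eq_bot_iff _).2 (MulAut.conj g).injective, inf_bot_eq])

omit h in
theorem normalizer_le_normalizer_wOf (R : Subgroup G) :
    normalizer (R : Set G) ≤ normalizer (wOf p R : Set G) := fun g hg => by
  rw [← map_conj_eq_self_iff, ← wOf_conj, map_conj_eq_of_mem_norm hg]

omit h in
theorem normalizer_wOf_smul (S : Sylow p G) {m : G}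
    (hm : m ∈ normalizer (wOf p (S : Subgroup G) : Set G)) :
    normalizer (wOf p ((m • S : Sylow p G) : Subgroup G) : Set G) =
      normalizer (wOf p (S : Subgroup G) : Set G) := by
  rw [coe_smul_sylow_eq_map_conj, wOf_conj, map_conj_eq_of_mem_norm hm]

theorem normalizer_le_aux (n : ℕ) : ∀ (S : Sylow p G) (X : Subgroup G), X ≠ ⊥ → X ≤ S →
    (normalizer (X : Set G) ⊓ S).index = n →
    normalizer (X : Set G) ≤ normalizer (wOf p (S : Subgroup G) : Set G) := by
  induction n using Nat.strong_induction_on with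
  | _ n ih =>
  intro S X h0 hXS hn
  have hX := S.2.to_le hXS
  set R := normalizer (X : Set G) ⊓ S with hR
  have hRp : IsPGroup p R := S.2.to_le inf_le_right
  have hXR : X ≤ R := le_inf le_normalizer hXS
  have hR0 : R ≠ ⊥ := fun e => h0 (le_bot_iff.1 (e ▸ hXR))
  have ih' : ∀ (S' : Sylow p G) (Y : Subgroup G), Y ≠ ⊥ → Y ≤ S' →
      R < normalizer (Y : Set G) ⊓ S' →
      normalizer (Y : Set G) ≤ normalizer (wOf p (S' : Subgroup G) : Set G) :=
    fun S' Y hY hYS hlt => ih _ (hn ▸ index_strictAnti hlt) S' Y hY hYS rfl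
  by_cases hRS : R = S
  · exact h.le_normalizer_wOf h0 hX S.2 (hRS ▸ inf_le_left) fun R' h1 h2 _ => S.3 h1 h2
  have := S.2.isNilpotent
  have hlt : R < normalizer (R : Set G) ⊓ S := by
    rw [inf_comm]; exact PG.lt_inf_normalizer (lt_of_le_of_ne inf_le_right hRS)
  by_cases hmax : ∀ R' : Subgroup G, IsPGroup p R' → R ≤ R' → R' ≤ normalizer (X : Set G) → R' = R
  · refine (h.le_normalizer_wOf h0 hX hRp inf_le_left hmax).trans
      (ih' S _ (wOf_ne_bot hRp hR0) ((wOf_le R).trans inf_le_right) ?_)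
    exact hlt.trans_le (inf_le_inf_right _ (normalizer_le_normalizer_wOf R))
  · push Not at hmax
    obtain ⟨R', h1, h2, h3, h4⟩ := hmax
    have := h1.isNilpotent
    have hlt' := PG.lt_inf_normalizer (lt_of_le_of_ne h2 h4.symm)
    obtain ⟨m, hm, hle⟩ := Inv.ST.exists_le_smul_sylow S
      (le_normalizer.trans (normalizer_le_normalizer_wOf _)) (h1.to_le inf_le_left)
      (inf_le_right.trans (ih' S R hR0 inf_le_right hlt))
    rw [← normalizer_wOf_smul S hm]
    exact ih' _ X h0 (hXR.trans (hlt'.le.trans hle))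
      (hlt'.trans_le (le_inf (inf_le_left.trans h3) hle))

/-- `M = N(W(S))` is a proper subgroup containing the normalizers of its nontrivial
`p`-subgroups. -/
theorem exists_strong (S : Sylow p G) : ∃ M : Subgroup G, M ≠ ⊤ ∧ (S : Subgroup G) ≤ M ∧
    ∀ X : Subgroup G, X ≠ ⊥ → IsPGroup p X → X ≤ M → normalizer (X : Set G) ≤ M := by
  have hS := le_normalizer.trans (normalizer_le_normalizer_wOf (p := p) (S : Subgroup G))
  refine ⟨normalizer (wOf p (S : Subgroup G) : Set G), h.normalizer_ne_top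
    (wOf_ne_bot S.2 (S.ne_bot_of_dvd_card h.dvd))
    (h.ne_top_of_isPGroup (S.2.to_le (wOf_le _))), hS, fun X h0 hX hXM => ?_⟩
  obtain ⟨m, hm, hle⟩ := Inv.ST.exists_le_smul_sylow S hS hX hXM
  rw [← normalizer_wOf_smul S hm]
  exact h.normalizer_le_aux _ _ X h0 hle rfl

/-- A solvable subgroup meeting `M` in an element of order `p` lies in `M` or has cyclic Sylow
`p`-subgroups. -/
theorem cyclic_of_not_le {M H : Subgroup G}
    (hM : ∀ X : Subgroup G, X ≠ ⊥ → IsPGroup p X → X ≤ M → normalizer (X : Set G) ≤ M)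
    (hH : Group.IsSolvable H) {f : G} (hf : orderOf f = p) (hfH : f ∈ H) (hfM : f ∈ M)
    (hle : ¬ H ≤ M) (T : Sylow p H) : IsCyclic (T : Subgroup H) := by
  have hf' : orderOf (⟨f, hfH⟩ : H) = p := by rw [← orderOf_coe, hf]
  have hf1 : f ≠ 1 := by rintro rfl; exact hp.out.ne_one (by simpa using hf.symm)
  obtain ⟨T₁, hT₁⟩ := (isPGroup_of_orderOf hf').exists_le_sylow
  suffices IsCyclic (T₁ : Subgroup H) from isCyclic_of_surjective _ (T₁.equiv T).surjective
  set T' := (T₁ : Subgroup H).map H.subtype with hT'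
  have hTp : IsPGroup p T' := T₁.2.map _
  have hfT : f ∈ T' := ⟨_, hT₁ (mem_zpowers _), rfl⟩
  have hTM : T' ≤ M := by
    by_contra hn
    have := hTp.isNilpotent
    have hlt := PG.lt_inf_normalizer (lt_of_le_of_ne (inf_le_left : T' ⊓ M ≤ T')
      fun e => hn (e ▸ inf_le_right))
    exact hlt.not_ge (inf_le_inf_left _ (hM _ (fun e => hf1 (mem_bot.1 (e ▸ ⟨hfT, hfM⟩)))
      (hTp.to_le inf_le_left) inf_le_right))
  by_contra hc
  have hr : ¬ PRankLE p 1 T₁ := fun hr =>
    hc (PG.isCyclic_of_pRankLE_one_of_odd (by have := h.five; omega) T₁.2 hr)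
  simp only [PRankLE, not_forall, not_le] at hr
  obtain ⟨A, hA1, hA2, hA3⟩ := hr
  let φ : T₁ →* G := H.subtype.comp (T₁ : Subgroup H).subtype
  have hφ : Function.Injective φ := H.subtype_injective.comp (T₁ : Subgroup H).subtype_injective
  have hET : A.map φ ≤ T' := by
    rintro _ ⟨a, -, rfl⟩; exact ⟨a, a.2, rfl⟩
  have hEp := hTp.to_le hET
  have hE : IsElementaryAbelian p (A.map φ) := ⟨inferInstance, by
    rintro _ ⟨a, ha, rfl⟩; rw [← map_pow, hA2 a ha, map_one]⟩
  have hE2 : p ^ 2 ≤ Nat.card (A.map φ) := by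
    obtain ⟨k, hk⟩ := hEp.exists_card_eq
    rw [card_map_of_injective hφ] at hk ⊢
    rw [hk] at hA3 ⊢
    exact Nat.pow_le_pow_right hp.out.pos ((Nat.pow_lt_pow_iff_right hp.out.one_lt).1 hA3)
  have hO : pPrimeCoreOf p H ≤ M := by
    refine CopAct.le_of_centralizer_elt_le hE.1 (CopAct.not_isCyclic_of_isElementaryAbelian hE hE2)
      ((hET.trans (map_subtype_le _)).trans (le_normalizer_pPrimeCoreOf H)) ?_ fun a ha ha1 => ?_
    · obtain ⟨k, hk⟩ := hEp.exists_card_eq
      rw [hk]; exact (coprime_card_pPrimeCoreOf p H).symm.pow_left k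
    · refine inf_le_right.trans (le_trans ?_ (hM (zpowers a) (zpowers_eq_bot.not.2 ha1)
        (hEp.to_le (zpowers_le.2 ha)) (zpowers_le.2 (hTM (hET ha)))))
      rw [← centralizer_zpowers]; exact PG.centralizer_le_normalizer' _
  have h0 : (T₁ : Subgroup H) ⊓ pPrimePCore p H ≠ ⊥ := by
    intro e
    have e1 := Loc.pPrimeCore_sup_sylow_inf T₁
    rw [e, sup_bot_eq] at e1
    have hch := (isPSolvable_of_isSolvable (p := p) hH).charP_quotient
    have e2 : pCore p (H ⧸ pPrimeCore p H) = ⊥ := by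
      have := congrArg (map (prj p H)) e1
      rwa [pPrimePCore, map_comap_mk', map_mk'_eq_bot_iff.2 le_rfl, eq_comm] at this
    rw [e2, centralizer_bot] at hch
    have := orderOf_prj hf'
    rw [mem_bot.1 (hch (mem_top (prj p H ⟨f, hfH⟩)))] at this
    exact hp.out.ne_one (by simpa using this.symm)
  refine hle fun g hg => ?_
  obtain ⟨n, hn, d, hd, e⟩ := Loc.exists_pPrimeCore_mul_normalizer T₁ ⟨g, hg⟩
  rw [show g = n * d from congrArg Subtype.val e]
  refine mul_mem (hM (((T₁ : Subgroup H) ⊓ pPrimePCore p H).map H.subtype)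
    (by rwa [Ne, map_eq_bot_iff_of_injective _ H.subtype_injective])
    (hTp.to_le (map_mono inf_le_left)) ((map_mono inf_le_left).trans hTM) ?_) (hO ⟨d, hd, rfl⟩)
  rw [normalizer_eq_subgroupOf] at hn
  exact hn

end MC

end Cfsg.Agent.Flv
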