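import Mathlib
import Cfsg.Agent.Flv.TwoGenA

/-!
# Groups in which every two elements generate a solvable subgroup, II

The Sylow `p`-subgroups of the minimal counterexample are cyclic.
-/

set_option autoImplicit false
set_option linter.unusedSectionVars false

namespace Cfsg.Agent.Flv

open Subgroup Cfsg.Agent.GT

universe u

theorem exists_cancel {K : Type*} [Group K] [Finite K] {p : ℕ} [hp : Fact p.Prime] {x y : K}
    (hx : orderOf x = p) (hy : y ∈ zpowers x) :
    ∃ l : ZMod p, ∀ k : ZMod p, PReg p (y * x ^ k.val) ↔ k = l := by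
  obtain ⟨n, hn⟩ := (mem_powers_iff_mem_zpowers.2 (inv_mem hy) : y⁻¹ ∈ Submonoid.powers x)
  refine ⟨n, fun k => ?_⟩
  have h1 : y * x ^ k.val = 1 ↔ k = n := by
    rw [mul_eq_one_iff_inv_eq, ← hn, pow_eq_pow_iff_modEq, hx, ← ZMod.natCast_eq_natCast_iff,
      ZMod.natCast_zmod_val, eq_comm]
  rw [← h1]
  exact ⟨fun h => h.eq_one_of_mem (isPGroup_of_orderOf hx)
    (mul_mem hy (pow_mem (mem_zpowers x) _)), fun h => h ▸ preg_one⟩

theorem closure_pair_subtype {G : Type*} [Group G] (a b : G) :
    closure ({⟨a, subset_closure (by simp)⟩, ⟨b, subset_closure (by simp)⟩} :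
      Set (closure ({a, b} : Set G))) = ⊤ := by
  apply map_injective (closure ({a, b} : Set G)).subtype_injective
  rw [MonoidHom.map_closure, Set.image_pair, ← MonoidHom.range_eq_map, range_subtype]
  rfl

namespace MC

variable {G : Type u} [Group G] [Finite G] {p : ℕ} [hp : Fact p.Prime] (h : MC G p)
  {M : Subgroup G}
  (hM : ∀ X : Subgroup G, X ≠ ⊥ → IsPGroup p X → X ≤ M → normalizer (X : Set G) ≤ M)
include h hM

theorem stepI {u e : G} (hu : orderOf u = p) (huM : u ∉ M) (he : orderOf e = p) (heM : e ∈ M) :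
    ∃ l : ZMod p, l ≠ 0 ∧ (∀ c : ZMod p, PReg p (e * u ^ c.val) ↔ c = l) ∧
      ∀ c : ℕ, PReg p ((e * u ^ c) ^ p) := by
  set K := closure ({u, e} : Set G)
  have huK : u ∈ K := subset_closure (by simp)
  have heK : e ∈ K := subset_closure (by simp)
  have hc := h.cyclic_of_not_le hM (h.two u e) he heK heM fun hle => huM (hle huK)
  have hu' : orderOf (prj p K ⟨u, huK⟩) = p := orderOf_prj (by rw [← orderOf_coe, hu])
  have he' : orderOf (prj p K ⟨e, heK⟩) = p := orderOf_prj (by rw [← orderOf_coe, he])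
  have hm : prj p K ⟨e, heK⟩ ∈ zpowers (prj p K ⟨u, huK⟩) :=
    zpowers_eq_of_cyclic (h.two u e) hc hu' he' ▸ mem_zpowers _
  obtain ⟨l, hl⟩ := exists_cancel hu' hm
  have key : ∀ c : ZMod p, PReg p (e * u ^ c.val) ↔ c = l := fun c => by
    rw [← hl, ← map_pow, ← map_mul, preg_prj, ← preg_coe]; rfl
  refine ⟨l, fun e0 => ?_, key, fun c => ?_⟩
  · have := (key 0).2 e0.symm
    rw [ZMod.val_zero, pow_zero, mul_one, PReg, he, Nat.coprime_self] at this
    exact hp.out.ne_one this
  · have h1 : prj p K ((⟨e, heK⟩ * ⟨u, huK⟩ ^ c) ^ p) = 1 := by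
      rw [map_pow, map_mul, map_pow]
      have := Subgroup.orderOf_dvd_natCard _ (mul_mem hm (pow_mem (mem_zpowers _) c))
      rw [Nat.card_zpowers, hu'] at this
      exact orderOf_dvd_iff_pow_eq_one.1 this
    have h2 : PReg p (prj p K ((⟨e, heK⟩ * ⟨u, huK⟩ ^ c) ^ p)) := h1 ▸ preg_one
    rw [preg_prj, ← preg_coe] at h2
    exact h2

theorem stepII {w f : G} (hwM : w ∉ M) (hw : PReg p (w ^ p)) (hf : orderOf f = p) (hfM : f ∈ M) :
    (∃ l : ZMod p, ∀ k : ZMod p, PReg p (f ^ k.val * w) ↔ k = l) ∨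
      ∀ k : ZMod p, PReg p (f ^ k.val * w) := by
  set K := closure ({w, f} : Set G)
  have hwK : w ∈ K := subset_closure (by simp)
  have hfK : f ∈ K := subset_closure (by simp)
  have hc := h.cyclic_of_not_le hM (h.two w f) hf hfK hfM fun hle => hwM (hle hwK)
  have hf' : orderOf (prj p K ⟨f, hfK⟩) = p := orderOf_prj (by rw [← orderOf_coe, hf])
  set a := prj p K ⟨w, hwK⟩ with ha
  set b := prj p K ⟨f, hfK⟩ with hb
  have key : ∀ k : ZMod p, PReg p (f ^ k.val * w) ↔ PReg p (b ^ k.val * a) := fun k => by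
    rw [ha, hb, ← map_pow, ← map_mul, preg_prj, ← preg_coe]; rfl
  simp only [key]
  by_cases hab : Commute a b
  · left
    have htop : closure ({a, b} : Set (K ⧸ pPrimeCore p K)) = ⊤ := by
      rw [ha, hb, ← Set.image_pair, ← MonoidHom.map_closure, closure_pair_subtype,
        map_top_of_surjective _ (QuotientGroup.mk'_surjective _)]
    have hcen : a ∈ center (K ⧸ pPrimeCore p K) := by
      have : closure ({a, b} : Set (K ⧸ pPrimeCore p K)) ≤ centralizer {a} := by
        refine (closure_le _).2 ?_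
        rintro x (rfl | rfl)
        · exact mem_centralizer_singleton_iff.2 rfl
        · exact mem_centralizer_singleton_iff.2 hab.symm
      rw [htop] at this
      exact mem_center_iff.2 fun g => mem_centralizer_singleton_iff.1 (this (mem_top g))
    have hap : a ^ p = 1 := by
      have h1 : PReg p (a ^ p) := by
        rw [ha, ← map_pow, preg_prj, ← preg_coe]; exact hw
      have hn : (zpowers (a ^ p)).Normal := ⟨fun x hx g => by
        rwa [mem_center_iff.1 (zpowers_le.2 (pow_mem hcen p) hx) g, mul_inv_cancel_right]⟩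
      have : zpowers (a ^ p) ≤ pPrimeCore p _ := le_pPrimeCore (by rw [Nat.card_zpowers]; exact h1)
      rw [pPrimeCore_quotient_pPrimeCore] at this
      exact mem_bot.1 (this (mem_zpowers _))
    have hm : a ∈ zpowers b := by
      by_cases h1 : a = 1
      · rw [h1]; exact one_mem _
      · exact zpowers_eq_of_cyclic (h.two w f) hc hf' (orderOf_eq_prime hap h1) ▸ mem_zpowers _
    obtain ⟨l, hl⟩ := exists_cancel hf' hm
    exact ⟨l, fun k => by rw [← hl, (hab.pow_right _).eq]⟩
  · right
    intro k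
    by_contra hn
    have hd : p ∣ orderOf (b ^ k.val * a) := by
      by_contra hd
      exact hn ((Nat.Prime.coprime_iff_not_dvd hp.out).2 hd).symm
    have ho := orderOf_pow_orderOf_div (orderOf_pos (b ^ k.val * a)).ne' hd
    have hm : b ∈ zpowers (b ^ k.val * a) := zpowers_le.2 (pow_mem (mem_zpowers _) _)
      (zpowers_eq_of_cyclic (h.two w f) hc ho hf' ▸ mem_zpowers b)
    obtain ⟨n, hn'⟩ := mem_zpowers_iff.1 hm
    have h1 : Commute (b ^ k.val * a) b := by
      conv => enter [2]; rw [← hn']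
      exact Commute.zpow_right (Commute.refl _) n
    have h2 := ((Commute.refl b).pow_left k.val).inv_left.mul_left h1
    rw [inv_mul_cancel_left] at h2
    exact hab h2

omit hM in
theorem isCyclic_sylow (S : Sylow p G) : IsCyclic (S : Subgroup G) := by
  obtain ⟨M, hMt, hSM, hM⟩ := h.exists_strong S
  by_contra hc
  have hr : ¬ PRankLE p 1 S := fun hr =>
    hc (PG.isCyclic_of_pRankLE_one_of_odd (by have := h.five; omega) S.2 hr)
  simp only [PRankLE, not_forall, not_le] at hr
  obtain ⟨A, hA1, hA2, hA3⟩ := hr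
  have hA0 : A ≠ ⊥ := by
    rintro rfl
    have := hp.out.one_lt
    simp at hA3
    omega
  obtain ⟨f₀, hf₀, hf1⟩ := A.bot_or_exists_ne_one.resolve_left hA0
  have hfo : orderOf f₀ = p := orderOf_eq_prime (hA2 _ hf₀) hf1
  obtain ⟨e₀, he₀, he1⟩ : ∃ e₀ ∈ A, e₀ ∉ zpowers f₀ := by
    by_contra hn
    push Not at hn
    have := card_le_of_le (show A ≤ zpowers f₀ from hn)
    rw [Nat.card_zpowers, hfo] at this
    simp at hA3
    omega
  have hord : ∀ k : ZMod p, orderOf ((f₀ : G) ^ k.val * e₀) = p := fun k => by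
    have : orderOf (f₀ ^ k.val * e₀) = p :=
      orderOf_eq_prime (hA2 _ (mul_mem (pow_mem hf₀ _) he₀)) fun e =>
        he1 ((mul_mem_cancel_left (pow_mem (mem_zpowers f₀) k.val)).1 (e ▸ one_mem _))
    rw [← orderOf_coe] at this
    exact this
  have hmem : ∀ k : ZMod p, (f₀ : G) ^ k.val * e₀ ∈ M := fun k =>
    hSM (mul_mem (pow_mem f₀.2 _) e₀.2)
  have hf : orderOf (f₀ : G) = p := by rw [orderOf_coe, hfo]
  obtain ⟨u, hu, huM⟩ : ∃ u : G, orderOf u = p ∧ u ∉ M := by
    by_contra hn
    push Not at hn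
    have hN : (closure {x : G | orderOf x = p}).Normal := by
      refine normal_iff_forall_map_conj.2 fun g => mem_normalizer_iff_map_conj_eq.1 ?_
      refine mem_normalizer_of_map_conj_le ?_
      rw [MonoidHom.map_closure]
      refine closure_mono ?_
      rintro _ ⟨x, hx, rfl⟩
      exact (GT.orderOf_conj x g).trans hx
    rcases h.simple.eq_bot_or_eq_top_of_normal _ hN with e | e
    · have : (f₀ : G) ∈ closure {x : G | orderOf x = p} := subset_closure hf
      rw [e, mem_bot] at this
      exact hf1 (Subtype.ext this)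
    · exact hMt (top_le_iff.1 (e ▸ (closure_le _).2 hn))
  choose γ hγ0 hγ hγp using fun k => h.stepI hM hu huM (hord k) (hmem k)
  have hII : ∀ c : ZMod p, c ≠ 0 → (∃ l : ZMod p, ∀ k, γ k = c ↔ k = l) ∨ ∀ k, γ k = c := by
    intro c hc0
    have hw : (e₀ : G) * u ^ c.val ∉ M := fun hm => by
      have h1 : u ^ c.val ∈ M := (mul_mem_cancel_left (hSM e₀.2)).1 hm
      have hcop : c.val.Coprime (orderOf u) := by
        rw [hu]
        exact ((Nat.Prime.coprime_iff_not_dvd hp.out).2 fun hd => hc0 (by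
          rw [← ZMod.natCast_zmod_val c]; exact (ZMod.natCast_eq_zero_iff _ _).2 hd)).symm
      obtain ⟨m, hm⟩ := exists_pow_eq_self_of_coprime hcop
      exact huM (hm ▸ pow_mem h1 m)
    have := h.stepII hM hw (by simpa using hγp 0 c.val) hf (hSM f₀.2)
    simp only [← mul_assoc, hγ, eq_comm (a := c)] at this
    exact this
  have hni : ¬ Function.Injective γ := fun hi => by
    obtain ⟨k, hk⟩ := Finite.injective_iff_surjective.1 hi 0
    exact hγ0 k hk
  simp only [Function.Injective, not_forall] at hni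
  obtain ⟨k, k', e, hne⟩ := hni
  have hall : ∀ j, γ j = γ k := (hII _ (hγ0 k)).resolve_left fun ⟨l, hl⟩ =>
    hne (((hl k).1 rfl).trans ((hl k').1 e.symm).symm)
  have h2 : (2 : ZMod p) ≠ 0 := fun e => by
    have := (ZMod.natCast_eq_zero_iff 2 p).1 (by exact_mod_cast e)
    have := Nat.le_of_dvd (by norm_num) this
    have := h.five
    omega
  have : γ k = 2 * γ k := by
    rcases hII (2 * γ k) (mul_ne_zero h2 (hγ0 k)) with ⟨l, hl⟩ | hl
    · exact (hall l).symm.trans ((hl l).2 rfl)
    · exact hl k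
  exact hγ0 k (by linear_combination -this)

end MC

end Cfsg.Agent.Flv
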