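import Mathlib
import Cfsg.Agent.Flv.TwoGenB
import Cfsg.Agent.GT.FixedPointFree
import Cfsg.Agent.GT.CoprimeAbelian

/-!
# Groups in which every two elements generate a solvable subgroup, III

Cyclic Sylow `p`-subgroups.  Points are the subgroups `D` of order `p`, lines through `D` are the
orbits of `D` under the maximal `D`-invariant `p'`-subgroups.  The normalizer of a point fixes all
lines through it, which forces a single line.
-/

set_option autoImplicit false
set_option linter.unusedSectionVars false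

namespace Cfsg.Agent.Flv

open Subgroup Cfsg.Agent.GT

universe u

local notation:75 H " ^ᶜ " g:76 => Subgroup.map (MulEquiv.toMonoidHom (MulAut.conj g)) H

/-- `T` is a `D`-invariant `p'`-subgroup. -/
def PInv {G : Type*} [Group G] (p : ℕ) (D T : Subgroup G) : Prop :=
  D ≤ normalizer (T : Set G) ∧ (Nat.card T).Coprime p

section

variable {G : Type u} [Group G] [Finite G] {p : ℕ} [hp : Fact p.Prime] {D T : Subgroup G}

theorem gen_of_card (hD : Nat.card D = p) {d : G} (hd : d ∈ D) (h1 : d ≠ 1) :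
    orderOf d = p ∧ zpowers d = D := by
  have h2 := Subgroup.orderOf_dvd_natCard _ hd
  rw [hD] at h2
  have ho : orderOf d = p := ((Nat.dvd_prime hp.out).1 h2).resolve_left
    fun e => h1 (orderOf_eq_one_iff.1 e)
  exact ⟨ho, PG.eq_of_le_of_card_le (zpowers_le.2 hd) (by rw [Nat.card_zpowers, ho, hD])⟩

theorem exists_gen (hD : Nat.card D = p) : ∃ d, orderOf d = p ∧ zpowers d = D := by
  obtain ⟨d, hd, h1⟩ := D.bot_or_exists_ne_one.resolve_left fun e => by
    rw [e, card_bot] at hD; exact hp.out.ne_one hD.symm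
  exact ⟨d, gen_of_card hD hd h1⟩

theorem isPGroup_of_card (hD : Nat.card D = p) : IsPGroup p D :=
  IsPGroup.of_card (n := 1) (by rw [hD, pow_one])

theorem ne_bot_of_card (hD : Nat.card D = p) : D ≠ ⊥ := fun e => by
  rw [e, card_bot] at hD; exact hp.out.ne_one hD.symm

theorem PInv.conj (h : PInv p D T) (g : G) : PInv p (D ^ᶜ g) (T ^ᶜ g) :=
  ⟨by rw [normalizer_map_conj]; exact map_mono h.1, by rw [card_map_conj]; exact h.2⟩

theorem mx_conj (h : Maximal (PInv p D) T) (g : G) : Maximal (PInv p (D ^ᶜ g)) (T ^ᶜ g) :=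
  ⟨h.1.conj g, fun T' hT' hle => by
    have := hT'.conj g⁻¹
    rw [map_conj_inv_map_conj] at this
    exact le_map_conj_iff.2 (h.2 this (map_conj_le_iff.1 hle))⟩

theorem mx_conj_of_mem (h : Maximal (PInv p D) T) {g : G} (hg : g ∈ T) :
    Maximal (PInv p (D ^ᶜ g)) T := by
  have := mx_conj h g
  rwa [map_conj_eq_of_mem hg] at this

theorem pinv_core {H : Subgroup G} (hDH : D ≤ H) : PInv p D (pPrimeCoreOf p H) :=
  ⟨hDH.trans (le_normalizer_pPrimeCoreOf H), coprime_card_pPrimeCoreOf p H⟩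

/-- (F5) -/
theorem PInv.eq_one_of_preg (hT : PInv p D T) (hD : IsPGroup p D) {t x : G} (ht : t ∈ T)
    (hx : x ∈ D) (h : PReg p (t * x)) : x = 1 := by
  have : T ≤ pPrimeCoreOf p (T ⊔ D) := le_pPrimeCoreOf le_sup_left (sup_le le_normalizer hT.1) hT.2
  have h2 := preg_mul (this (inv_mem ht)) (mul_mem (mem_sup_left ht) (mem_sup_right hx)) h
  rw [inv_mul_cancel_left] at h2
  exact h2.eq_one_of_mem hD hx

end

namespace MC

variable {G : Type u} [Group G] [Finite G] {p : ℕ} [hp : Fact p.Prime] (h : MC G p)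
include h

theorem isCyclic_of_isPGroup {Q : Subgroup G} (hQ : IsPGroup p Q) : IsCyclic Q := by
  obtain ⟨S, hS⟩ := hQ.exists_le_sylow
  have := h.isCyclic_sylow S
  exact isCyclic_of_injective (inclusion hS) (inclusion_injective hS)

theorem isCyclic_sylow' {H : Subgroup G} (T : Sylow p H) : IsCyclic (T : Subgroup H) := by
  have := h.isCyclic_of_isPGroup (T.2.map H.subtype)
  exact isCyclic_of_surjective _ (equivMapOfInjective _ _ H.subtype_injective).symm.surjective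

variable {D T T' : Subgroup G} (hD : Nat.card D = p)
include hD

theorem eq_one_of_centralizer {x : G} (hx : x ∈ centralizer (D : Set G)) (hr : PReg p x) :
    x = 1 := by
  have hDp := isPGroup_of_card hD
  obtain ⟨d, hd, rfl⟩ := exists_gen hD
  set C := centralizer (zpowers d : Set G)
  have hs : Group.IsSolvable C := h.solv_centralizer (ne_bot_of_card hD) hDp
  have hch := (isPSolvable_of_isSolvable (p := p) hs).centralizer_pCore_le
    (pPrimeCoreOf_eq_bot_iff.1 (h.core_centralizer_zpowers hDp))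
  have hQ := isPGroup_pCoreOf p C
  have hcyc := h.isCyclic_of_isPGroup hQ
  have hDQ : zpowers d ≤ pCoreOf p C := le_pCoreOf
    (PG.isMulCommutative_iff_le_centralizer.1 inferInstance) (PG.centralizer_le_normalizer' _) hDp
  have hn : zpowers x ≤ normalizer (pCoreOf p C : Set G) :=
    zpowers_le.2 (le_normalizer_pCoreOf C hx)
  have e := CopAct.commutator_inf_centralizer_eq_bot hcyc.isMulCommutative hn (by
    obtain ⟨k, hk⟩ := hQ.exists_card_eq
    rw [hk, Nat.card_zpowers]; exact hr.pow_right k)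
  have hle : ⁅pCoreOf p C, zpowers x⁆ ≤ pCoreOf p C := le_normalizer_iff_commutator_le_left.1 hn
  have h0 : ⁅pCoreOf p C, zpowers x⁆ = ⊥ := by
    by_contra h0
    obtain ⟨y, hy⟩ := exists_prime_orderOf_dvd_card' p
      ((hQ.to_le hle).card_eq_or_dvd.resolve_left fun e => h0 (card_eq_one.1 e))
    have hy' : orderOf (y : G) = p := by rw [orderOf_coe, hy]
    have e2 : zpowers (y : G) = zpowers d := FG.H93.eq_of_card_eq_of_isCyclic
      (zpowers_le.2 (hle y.2)) hDQ (by rw [Nat.card_zpowers, hy', hD])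
    have : (y : G) ∈ ⁅pCoreOf p C, zpowers x⁆ ⊓ centralizer (zpowers x : Set G) :=
      ⟨y.2, le_centralizer_iff.1 (zpowers_le.2 hx) (e2 ▸ mem_zpowers (y : G))⟩
    rw [e, mem_bot] at this
    rw [this] at hy'
    exact hp.out.ne_one (by simpa using hy'.symm)
  have hxc : x ∈ centralizer (pCoreOf p C : Set G) :=
    le_centralizer_iff.1 (commutator_eq_bot_iff_le_centralizer.1 h0) (mem_zpowers x)
  have : (⟨x, hx⟩ : C) ∈ pCore p C := hch (by rw [centralizer_eq_subgroupOf]; exact hxc)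
  exact hr.eq_one_of_mem hQ ⟨_, this, rfl⟩

/-- (F1) -/
theorem eq_one_of_normalizer (hT : PInv p D T) {t : G} (ht : t ∈ T)
    (hn : t ∈ normalizer (D : Set G)) : t = 1 := by
  refine h.eq_one_of_centralizer hD (mem_centralizer_iff.2 fun x hx => ?_) (preg_of_mem hT.2 ht)
  have h1 : t * x * t⁻¹ * x⁻¹ ∈ D := mul_mem (conj_mem_of_mem_normalizer hn hx) (inv_mem hx)
  have h2 : t * x * t⁻¹ * x⁻¹ ∈ T := by
    have := mul_mem ht (conj_mem_of_mem_normalizer (hT.1 hx) (inv_mem ht))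
    rwa [← mul_assoc, ← mul_assoc] at this
  have := (preg_of_mem hT.2 h2).eq_one_of_mem (isPGroup_of_card hD) h1
  rw [mul_inv_eq_one, mul_inv_eq_iff_eq_mul] at this
  exact this.symm

theorem eq_one_of_commute (hT : PInv p D T) {t d : G} (ht : t ∈ T) (hd : d ∈ D) (h1 : d ≠ 1)
    (hc : Commute t d) : t = 1 := by
  refine h.eq_one_of_normalizer hD hT ht (PG.centralizer_le_normalizer' _ ?_)
  rw [← (gen_of_card hD hd h1).2, centralizer_zpowers]
  exact mem_centralizer_singleton_iff.2 hc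

omit hD in
theorem ne_top_of_coprime (hT : (Nat.card T).Coprime p) : T ≠ ⊤ := by
  rintro rfl
  rw [card_top] at hT
  exact hp.out.ne_one (hT.symm.eq_one_of_dvd h.dvd)

omit h hD hp in
theorem isNilpotent_of_fpf {K : Subgroup G} (hK : Group.IsSolvable K) {k : G} {r : ℕ}
    (hr : r.Prime) (hk : orderOf k = r) (hn : k ∈ normalizer (K : Set G))
    (hf : ∀ x ∈ K, Commute x k → x = 1) : Group.IsNilpotent K :=
  Frob.isNilpotent_of_fpf_of_isSolvable (Frob.fpf_normalizerMonoidHom hn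
    (eq_bot_iff.2 fun x hx => hf x hx.1 (mem_centralizer_singleton_iff.1 hx.2))) hr (by
      rw [← map_pow, show (⟨k, hn⟩ : normalizer (K : Set G)) ^ r = 1 from
        Subtype.ext (by simpa using hk ▸ pow_orderOf_eq_one k), map_one])

/-- (F2) -/
theorem isNilpotent_of_pinv (hT : PInv p D T) : Group.IsNilpotent T := by
  obtain ⟨d, hd, rfl⟩ := exists_gen hD
  have h1 : d ≠ 1 := zpowers_eq_bot.not.1 (ne_bot_of_card hD)
  exact isNilpotent_of_fpf (h.proper _ (h.ne_top_of_coprime hT.2)) hp.out hd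
    (hT.1 (mem_zpowers d)) fun x hx hc => h.eq_one_of_commute hD hT hx (mem_zpowers d) h1 hc

/-- (F3) -/
theorem le_core {H : Subgroup G} (hH : Group.IsSolvable H) (hDH : D ≤ H) (hT : PInv p D T)
    (hTH : T ≤ H) : T ≤ pPrimeCoreOf p H := by
  obtain ⟨d, hd, rfl⟩ := exists_gen hD
  have h1 : d ≠ 1 := zpowers_eq_bot.not.1 (ne_bot_of_card hD)
  have hdH := hDH (mem_zpowers d)
  have hd' : orderOf (prj p H ⟨d, hdH⟩) = p := orderOf_prj (by rw [← orderOf_coe, hd])
  have hn := zpowers_normal_of_cyclic hH h.isCyclic_sylow' hd'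
  have hmem : ∀ t ∈ T, t * d * t⁻¹ * d⁻¹ ∈ T := fun t ht => by
    have := mul_mem ht (conj_mem_of_mem_normalizer (hT.1 (mem_zpowers d)) (inv_mem ht))
    rwa [← mul_assoc, ← mul_assoc] at this
  let f : T → T := fun t => ⟨t * d * (t : G)⁻¹ * d⁻¹, hmem t t.2⟩
  have hf : Function.Injective f := fun a b e => by
    have e' : (a : G) * d * (a : G)⁻¹ * d⁻¹ = b * d * (b : G)⁻¹ * d⁻¹ := congrArg Subtype.val e
    have : (b : G)⁻¹ * a = 1 := h.eq_one_of_commute hD hT (mul_mem (inv_mem b.2) a.2)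
      (mem_zpowers d) h1 (by
        rw [mul_left_inj] at e'
        calc (b : G)⁻¹ * a * d = (b : G)⁻¹ * (a * d * (a : G)⁻¹) * a := by group
          _ = d * ((b : G)⁻¹ * a) := by rw [e']; group)
    exact Subtype.ext (inv_mul_eq_one.1 this).symm
  intro x hx
  obtain ⟨t, ht⟩ := Finite.injective_iff_surjective.1 hf ⟨x, hx⟩
  have hx' : (⟨x, hTH hx⟩ : H) = ⟨t, hTH t.2⟩ * ⟨d, hdH⟩ * ⟨t, hTH t.2⟩⁻¹ * ⟨d, hdH⟩⁻¹ :=
    Subtype.ext (congrArg Subtype.val ht).symm
  have h2 : prj p H ⟨x, hTH hx⟩ ∈ zpowers (prj p H ⟨d, hdH⟩) := by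
    rw [hx', map_mul, map_mul, map_mul, map_inv, map_inv]
    exact mul_mem (hn.conj_mem _ (mem_zpowers _) _) (inv_mem (mem_zpowers _))
  have h3 : PReg p (prj p H ⟨x, hTH hx⟩) := by
    rw [preg_prj, ← preg_coe]; exact preg_of_mem hT.2 hx
  have h4 := (QuotientGroup.eq_one_iff _).1 (h3.eq_one_of_mem (isPGroup_of_orderOf hd') h2)
  rw [← pPrimeCoreOf_subgroupOf] at h4
  exact h4

theorem eq_of_inf_aux (n : ℕ) : ∀ T₁ T₂ : Subgroup G, Maximal (PInv p D) T₁ →
    Maximal (PInv p D) T₂ → T₁ ⊓ T₂ ≠ ⊥ → (T₁ ⊓ T₂).index = n → T₁ = T₂ := by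
  induction n using Nat.strong_induction_on with
  | _ n ih =>
  intro T₁ T₂ h1 h2 h0 hn
  by_contra hne
  set I := T₁ ⊓ T₂ with hI
  have hDI : D ≤ normalizer (I : Set G) := PG.le_normalizer_inf h1.1.1 h2.1.1
  have hs := h.proper _ (h.normalizer_ne_top h0 (h.ne_top_of_coprime
    (Nat.Coprime.coprime_dvd_left (card_dvd_of_le inf_le_left) h1.1.2)))
  obtain ⟨T₃, hle, h3⟩ := Finite.exists_le_maximal (pinv_core (p := p) hDI)
  have key : ∀ T, Maximal (PInv p D) T → I < T → T = T₃ := fun T hT hlt => by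
    have := h.isNilpotent_of_pinv hD hT.1
    have h4 : T ⊓ normalizer (I : Set G) ≤ T₃ := (h.le_core hD hs hDI
      ⟨PG.le_normalizer_inf hT.1.1 (hDI.trans le_normalizer),
        Nat.Coprime.coprime_dvd_left (card_dvd_of_le inf_le_left) hT.1.2⟩ inf_le_right).trans hle
    have h5 : I < T ⊓ T₃ := (PG.lt_inf_normalizer hlt).trans_le (le_inf inf_le_left h4)
    exact ih _ (hn ▸ index_strictAnti h5) T T₃ hT h3 (ne_bot_of_gt h5) rfl
  exact hne ((key T₁ h1 (lt_of_le_of_ne inf_le_left fun e =>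
    hne (h1.eq_of_le h2.1 (inf_eq_left.1 e)))).trans (key T₂ h2 (lt_of_le_of_ne inf_le_right
      fun e => hne (h2.eq_of_le h1.1 (inf_eq_right.1 e)).symm)).symm)

/-- (F4) -/
theorem eq_of_mem (h1 : Maximal (PInv p D) T) (h2 : Maximal (PInv p D) T') {x : G} (hx : x ∈ T)
    (hx' : x ∈ T') (h0 : x ≠ 1) : T = T' :=
  h.eq_of_inf_aux hD _ T T' h1 h2 (fun e => h0 (mem_bot.1 (e ▸ ⟨hx, hx'⟩))) rfl

/-- (G0) two points lie on at most one line. -/
theorem eq_of_coset (h1 : Maximal (PInv p D) T) (h2 : Maximal (PInv p D) T') {a a' : G}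
    (ha : a ∈ T) (h0 : a ≠ 1) (ha' : a' ∈ T') (hn : a'⁻¹ * a ∈ normalizer (D : Set G)) :
    T = T' := by
  obtain ⟨d, hd, hdD⟩ := exists_gen hD
  have hdm : d ∈ D := hdD ▸ mem_zpowers d
  have hd1 : d ≠ 1 := zpowers_eq_bot.not.1 (hdD ▸ ne_bot_of_card hD)
  have hx := conj_mem_of_mem_normalizer hn hdm
  set x := a'⁻¹ * a * d * (a'⁻¹ * a)⁻¹ with hxdef
  have e1 : a * d * a⁻¹ * d⁻¹ ∈ T := by
    have := mul_mem ha (conj_mem_of_mem_normalizer (h1.1.1 hdm) (inv_mem ha))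
    rwa [← mul_assoc, ← mul_assoc] at this
  have e2 : a' * x * a'⁻¹ * x⁻¹ ∈ T' := by
    have := mul_mem ha' (conj_mem_of_mem_normalizer (h2.1.1 hx) (inv_mem ha'))
    rwa [← mul_assoc, ← mul_assoc] at this
  have e3 : a * d * a⁻¹ * d⁻¹ = a' * x * a'⁻¹ * x⁻¹ * (x * d⁻¹) := by rw [hxdef]; group
  have e4 := h2.1.eq_one_of_preg (isPGroup_of_card hD) e2 (mul_mem hx (inv_mem hdm))
    (e3 ▸ preg_of_mem h1.1.2 e1)
  rw [e4, mul_one] at e3
  refine h.eq_of_mem hD h1 h2 e1 (e3 ▸ e2) fun e => h0 ?_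
  exact h.eq_one_of_commute hD h1.1 ha hdm hd1 (commutatorElement_eq_one_iff_commute.1 e)

/-- (G1) two points lie on a line. -/
theorem exists_mul {g : G} (hg : g ∉ normalizer (D : Set G)) :
    ∃ T, Maximal (PInv p D) T ∧ ∃ a ∈ T, a ≠ 1 ∧ ∃ n ∈ normalizer (D : Set G),
      n ∈ normalizer (T : Set G) ∧ g = a * n := by
  obtain ⟨d, hd, rfl⟩ := exists_gen hD
  set K := closure ({d, g} : Set G)
  have hdK : d ∈ K := subset_closure (by simp)
  have hgK : g ∈ K := subset_closure (by simp)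
  have hd0 : orderOf (⟨d, hdK⟩ : K) = p := by rw [← orderOf_coe, hd]
  have hn := zpowers_normal_of_cyclic (h.two d g) h.isCyclic_sylow' (orderOf_prj hd0)
  have e := map_normalizer_of_coprime_ker (f := prj p K) (QuotientGroup.mk'_surjective _)
    (by rw [QuotientGroup.ker_mk']; exact coprime_card_pPrimeCore p) (isPGroup_of_orderOf hd0)
  rw [MonoidHom.map_zpowers, normalizer_eq_top_iff.2 hn] at e
  obtain ⟨n, hn1, hn2⟩ := (e ▸ mem_top (prj p K ⟨g, hgK⟩) : _ ∈ map (prj p K) _)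
  have hn3 : (n : G) ∈ normalizer (zpowers d : Set G) := by
    rw [SetLike.mem_coe, normalizer_eq_subgroupOf, MonoidHom.map_zpowers] at hn1
    exact hn1
  have ha : g * (n : G)⁻¹ ∈ pPrimeCoreOf p K := by
    have : (⟨g, hgK⟩ : K) * n⁻¹ ∈ pPrimeCore p K := by
      rw [← QuotientGroup.eq_one_iff, ← QuotientGroup.mk'_apply, map_mul, map_inv, hn2,
        mul_inv_cancel]
    rw [← pPrimeCoreOf_subgroupOf] at this
    exact this
  have ha1 : g * (n : G)⁻¹ ≠ 1 := fun e => hg (mul_inv_eq_one.1 e ▸ hn3)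
  obtain ⟨T, hle, hT⟩ := Finite.exists_le_maximal (pinv_core (p := p) (zpowers_le.2 hdK))
  refine ⟨T, hT, _, hle ha, ha1, n, hn3, ?_, by group⟩
  have hT' := mx_conj hT n
  rw [map_conj_eq_of_mem_norm hn3] at hT'
  refine map_conj_eq_self_iff.1 (h.eq_of_mem hD hT' hT ?_ (hle ha) ha1)
  exact mem_map_conj.2 (hle (conj_mem_of_mem_normalizer' (le_normalizer_pPrimeCoreOf K n.2) ha))

/-- (G2) the normalizer of a point fixes the lines through it. -/
theorem normalizer_le (hT : Maximal (PInv p D) T) (h0 : T ≠ ⊥) :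
    normalizer (D : Set G) ≤ normalizer (T : Set G) := fun n hn => by
  obtain ⟨a, ha, ha1⟩ := T.bot_or_exists_ne_one.resolve_left h0
  obtain ⟨T', hT', a', ha', -, n', hn', hn'', e⟩ := h.exists_mul hD (g := a * n) fun hm =>
    ha1 (h.eq_one_of_normalizer hD hT.1 ha ((mul_mem_cancel_right hn).1 hm))
  have e' : a'⁻¹ * a = n' * n⁻¹ := by
    rw [inv_mul_eq_iff_eq_mul, ← mul_assoc, ← e, mul_inv_cancel_right]
  have hm : a'⁻¹ * a ∈ normalizer (D : Set G) := e' ▸ mul_mem hn' (inv_mem hn)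
  obtain rfl := h.eq_of_coset hD hT hT' ha ha1 ha' hm
  rw [h.eq_one_of_normalizer hD hT.1 (mul_mem (inv_mem ha') ha) hm, eq_comm, mul_inv_eq_one] at e'
  exact e' ▸ hn''

theorem exists_prime_order : ∃ k ∈ normalizer (D : Set G), ∃ r, r.Prime ∧ r ≠ p ∧ orderOf k = r := by
  by_contra hn
  push Not at hn
  have hN : IsPGroup p (normalizer (D : Set G)) := by
    refine IsPGroup.of_card (Nat.eq_prime_pow_of_unique_prime_dvd Nat.card_pos.ne' ?_)
    intro r hr hd
    have : Fact r.Prime := ⟨hr⟩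
    obtain ⟨k, hk⟩ := exists_prime_orderOf_dvd_card' r hd
    by_contra hrp
    exact hn k k.2 r hr hrp (by rw [orderOf_coe, hk])
  obtain ⟨P, hP⟩ := (isPGroup_of_card hD).exists_le_sylow
  have hc := h.isCyclic_sylow P
  have h1 : normalizer ((P : Subgroup G) : Set G) ≤ normalizer (D : Set G) := fun g hg =>
    map_conj_eq_self_iff.1 (FG.H93.eq_of_card_eq_of_isCyclic
      (map_conj_le_of_mem_normalizer hP hg) hP (card_map_conj D g))
  have h2 : normalizer ((P : Subgroup G) : Set G) = P := P.3 (hN.to_le h1) le_normalizer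
  have h3 : normalizer ((P : Subgroup G) : Set G) ≤ centralizer ((P : Subgroup G) : Set G) := by
    rw [h2]; exact PG.isMulCommutative_iff_le_centralizer.1 hc.isMulCommutative
  have h4 := MonoidHom.ker_transferSylow_isComplement' P h3
  rcases h.simple.eq_bot_or_eq_top_of_normal (MonoidHom.transferSylow P h3).ker inferInstance with
    e | e <;> rw [e] at h4
  · exact h.ne_top_of_isPGroup P.2 (isComplement'_bot_left.1 h4)
  · exact P.ne_bot_of_dvd_card h.dvd (isComplement'_top_left.1 h4)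

section K

variable {k : G} (hk : k ∈ normalizer (D : Set G)) {r : ℕ} (hr : r.Prime) (hrp : r ≠ p)
  (hko : orderOf k = r)
include hk hr hrp hko

omit hk in
theorem eq_one_of_commute_k {x : G} (hx : x ∈ D) (hc : Commute x k) : x = 1 := by
  by_contra h1
  have := h.eq_one_of_centralizer hD (x := k) (by
    rw [← (gen_of_card hD hx h1).2, centralizer_zpowers]
    exact mem_centralizer_singleton_iff.2 hc.symm)
    (by rw [PReg, hko]; exact (Nat.coprime_primes hr hp.out).2 hrp)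
  rw [this] at hko
  exact hr.ne_one (by simpa using hko.symm)

theorem exists_commute (hT : Maximal (PInv p D) T) (h0 : T ≠ ⊥) :
    ∃ b ∈ T, b ≠ 1 ∧ Commute b k := by
  by_contra hn
  push Not at hn
  have hkT := h.normalizer_le hD hT h0 hk
  have hs := h.proper _ (h.normalizer_ne_top h0 (h.ne_top_of_coprime hT.1.2))
  have hle : T ⊔ D ≤ normalizer (T : Set G) := sup_le le_normalizer hT.1.1
  have hDp := isPGroup_of_card hD
  have hnil : Group.IsNilpotent (T ⊔ D : Subgroup G) := by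
    refine isNilpotent_of_fpf (Group.isSolvable_of_isSolvable_injective (inclusion_injective hle)) hr hko
      (PG.le_normalizer_sup (zpowers_le.2 hkT) (zpowers_le.2 hk) (mem_zpowers k)) fun x hx hc => ?_
    obtain ⟨t, ht, y, hy, rfl⟩ := (PG.mem_sup_of_le_normalizer hT.1.1).1 hx
    have e : t⁻¹ * (k * t * k⁻¹) = y * (k * y * k⁻¹)⁻¹ := by
      calc t⁻¹ * (k * t * k⁻¹) = t⁻¹ * (k * (t * y)) * (k * y)⁻¹ := by group
        _ = y * (k * y * k⁻¹)⁻¹ := by rw [← hc.eq]; group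
    have h1 : t⁻¹ * (k * t * k⁻¹) = 1 :=
      (preg_of_mem hT.1.2 (mul_mem (inv_mem ht) (conj_mem_of_mem_normalizer hkT ht))).eq_one_of_mem
        hDp (e ▸ mul_mem hy (inv_mem (conj_mem_of_mem_normalizer hk hy)))
    have ht1 : t = 1 := by
      by_contra ht1
      rw [inv_mul_eq_one, eq_mul_inv_iff_mul_eq] at h1
      exact hn t ht ht1 h1
    rw [ht1, one_mul] at hc ⊢
    exact h.eq_one_of_commute_k hD hr hrp hko hy hc
  obtain ⟨a, ha, ha1⟩ := T.bot_or_exists_ne_one.resolve_left h0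
  refine ha1 (h.eq_one_of_normalizer hD hT.1 ha ?_)
  have h1 : D ≤ pCoreOf p (T ⊔ D) := le_pCoreOf_of_isNilpotent le_sup_right hDp
  have hcyc := h.isCyclic_of_isPGroup (isPGroup_pCoreOf p (T ⊔ D))
  exact map_conj_eq_self_iff.1 (FG.H93.eq_of_card_eq_of_isCyclic
    (map_conj_le_of_mem_normalizer h1 (le_normalizer_pCoreOf _ (mem_sup_left ha))) h1
    (card_map_conj D a))

theorem exists_not_commute (hT : Maximal (PInv p D) T) (h0 : T ≠ ⊥) :
    ∃ a ∈ T, ¬ Commute a k := by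
  by_contra hn
  push Not at hn
  obtain ⟨d, hd, hdD⟩ := exists_gen hD
  have hdm : d ∈ D := hdD ▸ mem_zpowers d
  have hd1 : d ≠ 1 := zpowers_eq_bot.not.1 (hdD ▸ ne_bot_of_card hD)
  obtain ⟨a, ha, ha1⟩ := T.bot_or_exists_ne_one.resolve_left h0
  have h1 : k * d * k⁻¹ * d⁻¹ ∈ D := mul_mem (conj_mem_of_mem_normalizer hk hdm) (inv_mem hdm)
  have h2 : k * d * k⁻¹ * d⁻¹ ≠ 1 := fun e => hd1 (h.eq_one_of_commute_k hD hr hrp hko hdm
    (commutatorElement_eq_one_iff_commute.1 e).symm)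
  refine ha1 (h.eq_one_of_commute hD hT.1 ha h1 h2 ?_)
  have h3 := (hn _ (conj_mem_of_mem_normalizer' (hT.1.1 hdm) ha)).inv_right.conj d
  rw [show d * (d⁻¹ * a * d) * d⁻¹ = a by group] at h3
  have := (hn a ha).mul_right h3
  rwa [← mul_assoc, ← mul_assoc] at this

end K

/-- (G3) there is only one line through a point. -/
theorem unique (hT : Maximal (PInv p D) T) (h0 : T ≠ ⊥) (hT' : Maximal (PInv p D) T')
    (h0' : T' ≠ ⊥) : T = T' := by
  obtain ⟨k, hk, r, hr, hrp, hko⟩ := h.exists_prime_order hD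
  obtain ⟨b, hb, hb1, hbk⟩ := h.exists_commute hD hk hr hrp hko hT h0
  obtain ⟨a, ha, hak⟩ := h.exists_not_commute hD hk hr hrp hko hT' h0'
  have hcard : ∀ g : G, Nat.card (D ^ᶜ g) = p := fun g => by rw [card_map_conj, hD]
  have hmem : ∀ g x : G, x ∈ normalizer ((D ^ᶜ g : Subgroup G) : Set G) ↔
      g⁻¹ * x * g ∈ normalizer (D : Set G) := fun g x => by rw [normalizer_map_conj, mem_map_conj]
  have hkb : k ∈ normalizer ((D ^ᶜ b : Subgroup G) : Set G) := by
    rwa [hmem, mul_assoc, ← hbk.eq, inv_mul_cancel_left]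
  by_cases hg : a * b⁻¹ ∈ normalizer ((D ^ᶜ b : Subgroup G) : Set G)
  · rw [hmem] at hg
    refine h.eq_of_coset hD hT hT' hb hb1 ha ?_
    have := inv_mem hg
    rwa [show (b⁻¹ * (a * b⁻¹) * b)⁻¹ = a⁻¹ * b by group] at this
  obtain ⟨T₁, hT₁, a', ha', ha1', n, hn, -, e⟩ := h.exists_mul (hcard b) hg
  have hkT₁ := h.normalizer_le (hcard b) hT₁ (fun e => ha1' (mem_bot.1 (e ▸ ha'))) hkb
  have hkT' := h.normalizer_le hD hT' h0' hk
  have hX : (D ^ᶜ b) ^ᶜ a' = D ^ᶜ a := by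
    rw [map_conj_map_conj, eq_comm, map_conj_eq_map_conj_iff]
    have := (hmem b n).1 hn
    rwa [show n = a'⁻¹ * (a * b⁻¹) by rw [e]; group,
      show b⁻¹ * (a'⁻¹ * (a * b⁻¹)) * b = (a' * b)⁻¹ * a by group] at this
  have m1 : Maximal (PInv p (D ^ᶜ a)) T' := mx_conj_of_mem hT' ha
  have m2 : Maximal (PInv p (D ^ᶜ a)) T₁ := hX ▸ mx_conj_of_mem hT₁ ha'
  have c1 : k * a * k⁻¹ * a⁻¹ ∈ T' := mul_mem (conj_mem_of_mem_normalizer hkT' ha) (inv_mem ha)
  have c2 : k * a' * k⁻¹ * a'⁻¹ ∈ T₁ := mul_mem (conj_mem_of_mem_normalizer hkT₁ ha') (inv_mem ha')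
  have c3 : (k * a' * k⁻¹ * a'⁻¹)⁻¹ * (k * a * k⁻¹ * a⁻¹) ∈
      normalizer ((D ^ᶜ a : Subgroup G) : Set G) := by
    have hn' := (hmem b n).1 hn
    have hk' := (hmem b k).1 hkb
    rw [hmem, show a⁻¹ * ((k * a' * k⁻¹ * a'⁻¹)⁻¹ * (k * a * k⁻¹ * a⁻¹)) * a =
      (b⁻¹ * (a'⁻¹ * (a * b⁻¹)) * b)⁻¹ * (b⁻¹ * k * b) * (b⁻¹ * (a'⁻¹ * (a * b⁻¹)) * b) *
        (b⁻¹ * k * b * k⁻¹)⁻¹ * (b⁻¹ * k * b * k⁻¹) * k⁻¹ by group,
      show a'⁻¹ * (a * b⁻¹) = n by rw [e]; group, inv_mul_cancel_right]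
    exact mul_mem (mul_mem (mul_mem (inv_mem hn') hk') hn') (inv_mem hk)
  obtain rfl := h.eq_of_coset (hcard a) m1 m2 c1
    (fun e => hak (commutatorElement_eq_one_iff_commute.1 e).symm) c2 c3
  refine h.eq_of_coset hD hT hT' hb hb1 (mul_mem (inv_mem ha') ha) ?_
  have := inv_mem ((hmem b n).1 hn)
  rwa [show n = a'⁻¹ * (a * b⁻¹) by rw [e]; group,
    show (b⁻¹ * (a'⁻¹ * (a * b⁻¹)) * b)⁻¹ = (a'⁻¹ * a)⁻¹ * b by group] at this

omit hD in
theorem false : False := by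
  obtain ⟨d, hd⟩ := exists_prime_orderOf_dvd_card' p h.dvd
  have hD : Nat.card (zpowers d) = p := by rw [Nat.card_zpowers, hd]
  obtain ⟨g₀, hg₀⟩ : ∃ g, g ∉ normalizer (zpowers d : Set G) := by
    by_contra hn
    push Not at hn
    exact h.normalizer_ne_top (ne_bot_of_card hD) (h.ne_top_of_isPGroup (isPGroup_of_card hD))
      (eq_top_iff.2 fun g _ => hn g)
  obtain ⟨T, hT, a, ha, ha1, -⟩ := h.exists_mul hD hg₀
  have h0 : T ≠ ⊥ := fun e => ha1 (mem_bot.1 (e ▸ ha))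
  refine h.normalizer_ne_top h0 (h.ne_top_of_coprime hT.1.2) (eq_top_iff.2 fun g _ => ?_)
  by_cases hg : g ∈ normalizer (zpowers d : Set G)
  · exact h.normalizer_le hD hT h0 hg
  · obtain ⟨T', hT', a', ha', ha1', n, -, hn, rfl⟩ := h.exists_mul hD hg
    obtain rfl := h.unique hD hT h0 hT' fun e => ha1' (mem_bot.1 (e ▸ ha'))
    exact mul_mem (le_normalizer ha') hn

end MC

end Cfsg.Agent.Flv
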